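import Mathlib
set_option autoImplicit false
set_option linter.unusedSectionVars false
set_option linter.style.haveILetI false

namespace Cfsg.Agent.Lib.Derange.Basic

open Finset MulAction
open scoped Classical

variable (Ω : Type*) [Fintype Ω]

/-- Number of fixed points of `g` on `Ω`. -/
noncomputable def fx {G : Type*} [SMul G Ω] (g : G) : ℕ :=
  (univ.filter fun x : Ω => g • x = x).card

variable {Ω}
variable {G : Type*} [Group G] [Fintype G] [MulAction G Ω]

theorem fx_le (g : G) : fx Ω g ≤ Fintype.card Ω := by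
  unfold fx
  exact card_filter_le _ _

theorem fx_one : fx Ω (1 : G) = Fintype.card Ω := by
  unfold fx
  simp

theorem card_fixedBy_eq (g : G) : Fintype.card (fixedBy Ω g) = fx Ω g := by
  unfold fx
  rw [Fintype.card_subtype]
  apply congrArg
  ext x
  simp [mem_fixedBy]

/-- Burnside's lemma in the `fx` notation. -/
theorem sum_fx (H : Type*) [Group H] [Fintype H] [MulAction H Ω] :
    ∑ h : H, fx Ω h = Nat.card (orbitRel.Quotient H Ω) * Fintype.card H := by
  haveI : Fintype (orbitRel.Quotient H Ω) := Fintype.ofFinite _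
  have := sum_card_fixedBy_eq_card_orbits_mul_card_group H Ω
  rw [Nat.card_eq_fintype_card, ← this]
  apply Finset.sum_congr rfl
  intro h _
  exact (card_fixedBy_eq h).symm

theorem sum_fx_transitive (htr : IsPretransitive G Ω) [Nonempty Ω] :
    ∑ g : G, fx Ω g = Fintype.card G := by
  rw [sum_fx G]
  have : Nat.card (orbitRel.Quotient G Ω) = 1 := by
    rw [Nat.card_eq_one_iff_unique]
    constructor
    · constructor
      intro a b
      induction a using Quotient.inductionOn with | _ a => ?_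
      induction b using Quotient.inductionOn with | _ b => ?_
      apply Quotient.sound
      exact (orbitRel_apply).2 (by
        obtain ⟨g, hg⟩ := htr.exists_smul_eq b a
        exact ⟨g, hg⟩)
    · exact ⟨Quotient.mk'' (Classical.arbitrary Ω)⟩
  rw [this, one_mul]

/-- fixed points on `Ω × Ω`. -/
theorem fx_prod (g : G) : fx (Ω × Ω) g = fx Ω g ^ 2 := by
  unfold fx
  rw [sq, ← card_product]
  congr 1
  ext ⟨a, b⟩
  simp [Prod.ext_iff]

/-- if the action is not two-transitive, at least 3 orbits on pairs. -/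
theorem three_le_rank [Nonempty Ω] {a b c d : Ω} (hab : a ≠ b) (hcd : c ≠ d)
    (hno : ∀ g : G, ¬ (g • a = c ∧ g • b = d)) :
    3 ≤ Nat.card (orbitRel.Quotient G (Ω × Ω)) := by
  haveI : Fintype (orbitRel.Quotient G (Ω × Ω)) := Fintype.ofFinite _
  rw [Nat.card_eq_fintype_card]
  set q : Ω × Ω → orbitRel.Quotient G (Ω × Ω) := fun x => Quotient.mk'' x with hq
  have hne1 : q (a, a) ≠ q (a, b) := by
    intro h
    obtain ⟨g, hg⟩ := orbitRel_apply.1 (Quotient.exact h)
    have h1 : g • a = a := congrArg Prod.fst hg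
    have h2 : g • b = a := congrArg Prod.snd hg
    exact hab (smul_left_cancel g (h1.trans h2.symm))
  have hne2 : q (a, a) ≠ q (c, d) := by
    intro h
    obtain ⟨g, hg⟩ := orbitRel_apply.1 (Quotient.exact h)
    have h1 : g • c = a := congrArg Prod.fst hg
    have h2 : g • d = a := congrArg Prod.snd hg
    exact hcd (smul_left_cancel g (h1.trans h2.symm))
  have hne3 : q (a, b) ≠ q (c, d) := by
    intro h
    obtain ⟨g, hg⟩ := orbitRel_apply.1 (Quotient.exact h)
    have h1 : g • c = a := congrArg Prod.fst hg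
    have h2 : g • d = b := congrArg Prod.snd hg
    exact hno g⁻¹ ⟨by rw [← h1, inv_smul_smul], by rw [← h2, inv_smul_smul]⟩
  have : ({q (a, a), q (a, b), q (c, d)} : Finset _).card = 3 := by
    rw [card_eq_three]
    exact ⟨_, _, _, hne1, hne2, hne3, rfl⟩
  rw [← this]
  exact card_le_univ _

/-- `n · |Der| ≥ (r − 1) |G|`. -/
theorem rank_bound (htr : IsPretransitive G Ω) [Nonempty Ω] :
    (Nat.card (orbitRel.Quotient G (Ω × Ω)) : ℤ) * (Fintype.card G : ℤ) - (Fintype.card G : ℤ)
      ≤ (Fintype.card Ω : ℤ) * ((univ.filter fun g : G => fx Ω g = 0).card : ℤ) := by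
  set n : ℤ := (Fintype.card Ω : ℤ) with hn
  set r : ℤ := (Nat.card (orbitRel.Quotient G (Ω × Ω)) : ℤ) with hr
  have h1 : ∑ g : G, (fx Ω g : ℤ) = Fintype.card G := by
    exact_mod_cast sum_fx_transitive (G := G) htr
  have h2 : ∑ g : G, (fx Ω g : ℤ) ^ 2 = r * Fintype.card G := by
    have := sum_fx (Ω := Ω × Ω) G
    have h3 : ∑ g : G, fx Ω g ^ 2 = Nat.card (orbitRel.Quotient G (Ω × Ω)) * Fintype.card G := by
      rw [← this]
      exact Finset.sum_congr rfl fun g _ => (fx_prod g).symm
    rw [hr]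
    exact_mod_cast h3
  have h4 : ∑ g : G, (n - fx Ω g) * ((fx Ω g : ℤ) - 1) =
      (Fintype.card G : ℤ) - r * Fintype.card G := by
    have : ∀ g : G, (n - fx Ω g) * ((fx Ω g : ℤ) - 1) =
        n * fx Ω g - n + fx Ω g - (fx Ω g : ℤ) ^ 2 := fun g => by ring
    simp only [this]
    rw [sum_sub_distrib, sum_add_distrib, sum_sub_distrib, ← mul_sum, h1, h2]
    simp
    ring
  have h5 : ∀ g : G, (if fx Ω g = 0 then -n else 0) ≤ (n - fx Ω g) * ((fx Ω g : ℤ) - 1) := by
    intro g
    split_ifs with h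
    · rw [h]; simp
    · have h6 : (fx Ω g : ℤ) ≤ n := by rw [hn]; exact_mod_cast fx_le g
      have h7 : (1 : ℤ) ≤ fx Ω g := by exact_mod_cast Nat.one_le_iff_ne_zero.2 h
      exact mul_nonneg (by linarith) (by linarith)
  have h8 := Finset.sum_le_sum (fun g (_ : g ∈ (univ : Finset G)) => h5 g)
  rw [h4, Finset.sum_ite] at h8
  simp at h8
  linarith

end Cfsg.Agent.Lib.Derange.Basic
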