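import Cfsg.Agent.Lib.Derange.Basic
set_option autoImplicit false
set_option linter.unusedSectionVars false
set_option linter.style.haveILetI false

namespace Cfsg.Agent.Lib.Derange.Lines

open Finset MulAction
open scoped Classical
open Cfsg.Agent.Lib.Derange.Basic

variable {G Ω : Type*} [Group G] [Fintype G] [MulAction G Ω] [Fintype Ω]

/-- The two-point stabilizer, as a finset of group elements. -/
noncomputable def St (G : Type*) [Group G] [Fintype G] [MulAction G Ω] (a b : Ω) : Finset G :=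
  univ.filter fun g : G => g • a = a ∧ g • b = b

/-- The "line" through `a` and `b`: all points fixed by the stabilizer of `a` and `b`. -/
noncomputable def L (G : Type*) [Group G] [Fintype G] [MulAction G Ω] (a b : Ω) : Finset Ω :=
  univ.filter fun x : Ω => ∀ g : G, g • a = a → g • b = b → g • x = x

theorem mem_St {a b : Ω} {g : G} : g ∈ St G a b ↔ g • a = a ∧ g • b = b := by
  simp [St]

theorem mem_L {a b x : Ω} : x ∈ L G a b ↔ ∀ g : G, g • a = a → g • b = b → g • x = x := by
  simp [L]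

theorem left_mem_L (a b : Ω) : a ∈ L G a b := mem_L.2 fun _ h _ => h
theorem right_mem_L (a b : Ω) : b ∈ L G a b := mem_L.2 fun _ _ h => h

theorem L_comm (a b : Ω) : L G a b = L G b a := by
  ext x
  simp only [mem_L]
  exact ⟨fun h g h1 h2 => h g h2 h1, fun h g h1 h2 => h g h2 h1⟩

theorem conj_mem_St {a b : Ω} {g : G} (w : G) (hg : g ∈ St G a b) :
    w * g * w⁻¹ ∈ St G (w • a) (w • b) := by
  rw [mem_St] at hg ⊢
  constructor
  · rw [smul_smul, mul_assoc, inv_mul_cancel, mul_one, ← smul_smul, hg.1]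
  · rw [smul_smul, mul_assoc, inv_mul_cancel, mul_one, ← smul_smul, hg.2]

theorem card_St_smul (w : G) (a b : Ω) : (St G (w • a) (w • b)).card = (St G a b).card := by
  apply le_antisymm
  · apply card_le_card_of_injOn (fun g => w⁻¹ * g * w⁻¹⁻¹)
    · intro g hg
      have := conj_mem_St w⁻¹ hg
      simpa [inv_smul_smul] using this
    · intro g _ g' _ h
      simpa using h
  · apply card_le_card_of_injOn (fun g => w * g * w⁻¹)
    · intro g hg
      exact conj_mem_St w hg
    · intro g _ g' _ h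
      simpa using h

theorem smul_mem_L {a b x : Ω} (w : G) (hx : x ∈ L G a b) : w • x ∈ L G (w • a) (w • b) := by
  rw [mem_L] at hx ⊢
  intro g h1 h2
  have h3 : (w⁻¹ * g * w) • a = a := by
    rw [mul_smul, mul_smul, h1, inv_smul_smul]
  have h4 : (w⁻¹ * g * w) • b = b := by
    rw [mul_smul, mul_smul, h2, inv_smul_smul]
  have h5 := hx _ h3 h4
  rw [mul_smul, mul_smul, inv_smul_eq_iff] at h5
  exact h5

theorem smul_mem_L_iff {a b x : Ω} (w : G) : w • x ∈ L G (w • a) (w • b) ↔ x ∈ L G a b := by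
  refine ⟨fun h => ?_, smul_mem_L w⟩
  have := smul_mem_L w⁻¹ h
  simpa using this

theorem card_L_smul (w : G) (a b : Ω) : (L G (w • a) (w • b)).card = (L G a b).card := by
  apply le_antisymm
  · apply card_le_card_of_injOn (fun x => w⁻¹ • x)
    · intro x hx
      have := smul_mem_L w⁻¹ hx
      simpa using this
    · intro x _ y _ h
      simpa using h
  · apply card_le_card_of_injOn (fun x => w • x)
    · intro x hx
      exact smul_mem_L w hx
    · intro x _ y _ h
      simpa using h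

/-- 2-transitivity hypothesis. -/
def TwoTrans (G Ω : Type*) [Group G] [MulAction G Ω] : Prop :=
  ∀ a b c d : Ω, a ≠ b → c ≠ d → ∃ g : G, g • a = c ∧ g • b = d

theorem card_St_eq (h2 : TwoTrans G Ω) {a b c d : Ω} (hab : a ≠ b) (hcd : c ≠ d) :
    (St G a b).card = (St G c d).card := by
  obtain ⟨w, rfl, rfl⟩ := h2 a b c d hab hcd
  exact (card_St_smul w a b).symm

theorem card_L_eq (h2 : TwoTrans G Ω) {a b c d : Ω} (hab : a ≠ b) (hcd : c ≠ d) :
    (L G a b).card = (L G c d).card := by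
  obtain ⟨w, rfl, rfl⟩ := h2 a b c d hab hcd
  exact (card_L_smul w a b).symm

theorem St_eq_of_mem (h2 : TwoTrans G Ω) {a b c d : Ω} (hab : a ≠ b) (hcd : c ≠ d)
    (hc : c ∈ L G a b) (hd : d ∈ L G a b) : St G c d = St G a b := by
  symm
  apply eq_of_subset_of_card_le
  · intro g hg
    rw [mem_St] at hg ⊢
    rw [mem_L] at hc hd
    exact ⟨hc g hg.1 hg.2, hd g hg.1 hg.2⟩
  · exact (card_St_eq h2 hab hcd).symm.le

theorem stab_iff (h2 : TwoTrans G Ω) {a b c d : Ω} (hab : a ≠ b) (hcd : c ≠ d)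
    (hc : c ∈ L G a b) (hd : d ∈ L G a b) (g : G) :
    (g • c = c ∧ g • d = d) ↔ (g • a = a ∧ g • b = b) := by
  have := St_eq_of_mem h2 hab hcd hc hd
  rw [← mem_St (G := G), this, mem_St]

theorem L_eq_of_mem (h2 : TwoTrans G Ω) {a b c d : Ω} (hab : a ≠ b) (hcd : c ≠ d)
    (hc : c ∈ L G a b) (hd : d ∈ L G a b) : L G c d = L G a b := by
  ext x
  simp only [mem_L]
  constructor
  · intro h g h1 h2'
    exact h g ((stab_iff h2 hab hcd hc hd g).2 ⟨h1, h2'⟩).1 ((stab_iff h2 hab hcd hc hd g).2 ⟨h1, h2'⟩).2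
  · intro h g h1 h2'
    exact h g ((stab_iff h2 hab hcd hc hd g).1 ⟨h1, h2'⟩).1 ((stab_iff h2 hab hcd hc hd g).1 ⟨h1, h2'⟩).2

/-- Bound on fixed points: a non-identity element fixing `Y` gives `|Y| (m-1) ≤ n-1`. -/
theorem fx_mul_le [FaithfulSMul G Ω] (h2 : TwoTrans G Ω) {g : G} (hg : g ≠ 1) {a b : Ω}
    (hab : a ≠ b) :
    fx Ω g * ((L G a b).card - 1) ≤ Fintype.card Ω - 1 := by
  obtain ⟨z, hz⟩ : ∃ z : Ω, g • z ≠ z := by
    by_contra h
    push Not at h
    exact hg (eq_of_smul_eq_smul (α := Ω) (by simpa using h))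
  set Y := univ.filter fun x : Ω => g • x = x with hY
  have hne : ∀ y ∈ Y, y ≠ z := by
    intro y hy h
    rw [hY, mem_filter] at hy
    exact hz (h ▸ hy.2)
  have hdisj : (Y : Set Ω).PairwiseDisjoint fun y => (L G y z).erase z := by
    intro y hy y' hy' hyy'
    change Disjoint _ _
    rw [Finset.disjoint_left]
    intro p hp hp'
    rw [mem_erase] at hp hp'
    have hyz := hne y hy
    have hyz' := hne y' hy'
    have e1 : L G p z = L G y z := L_eq_of_mem h2 hyz hp.1 hp.2 (right_mem_L y z)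
    have e2 : L G p z = L G y' z := L_eq_of_mem h2 hyz' hp'.1 hp'.2 (right_mem_L y' z)
    have hy'm : y' ∈ L G y z := by rw [← e1, e2]; exact left_mem_L _ _
    have e3 : L G y y' = L G y z := L_eq_of_mem h2 hyz hyy' (left_mem_L _ _) hy'm
    have hzm : z ∈ L G y y' := by rw [e3]; exact right_mem_L _ _
    rw [mem_L] at hzm
    have hy1 : g • y = y := (mem_filter.1 hy).2
    have hy2 : g • y' = y' := (mem_filter.1 hy').2
    exact hz (hzm g hy1 hy2)
  have hsub : Y.biUnion (fun y => (L G y z).erase z) ⊆ univ.erase z := by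
    intro p hp
    rw [mem_biUnion] at hp
    obtain ⟨y, _, hy⟩ := hp
    exact mem_erase.2 ⟨(mem_erase.1 hy).1, mem_univ _⟩
  have hcard := card_le_card hsub
  rw [card_biUnion hdisj, card_erase_of_mem (mem_univ _), card_univ] at hcard
  have hsum : ∑ y ∈ Y, ((L G y z).erase z).card = Y.card * ((L G a b).card - 1) := by
    rw [sum_const_nat]
    intro y hy
    rw [card_erase_of_mem (right_mem_L y z), card_L_eq h2 (hne y hy) hab]
  rw [hsum] at hcard
  exact hcard

/-- Counting the group: `|G| = n (n-1) f`. -/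
theorem card_group_eq (h2 : TwoTrans G Ω) {α β : Ω} (hαβ : α ≠ β) :
    Fintype.card G = (univ : Finset Ω).offDiag.card * (St G α β).card := by
  have hmaps : ∀ g ∈ (univ : Finset G), (g • α, g • β) ∈ (univ : Finset Ω).offDiag := by
    intro g _
    rw [mem_offDiag]
    exact ⟨mem_univ _, mem_univ _, fun h => hαβ (smul_left_cancel g h)⟩
  have := card_eq_sum_card_fiberwise hmaps
  rw [card_univ] at this
  rw [this, ← smul_eq_mul, ← sum_const]
  apply sum_congr rfl
  intro p hp
  rw [mem_offDiag] at hp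
  obtain ⟨w, hw1, hw2⟩ := h2 α β p.1 p.2 hαβ hp.2.2
  apply card_bij' (fun g _ => w⁻¹ * g) (fun g _ => w * g)
  · intro g hg
    rw [mem_St]
    rw [mem_filter] at hg
    have h1 : g • α = p.1 := congrArg Prod.fst hg.2
    have h3 : g • β = p.2 := congrArg Prod.snd hg.2
    rw [mul_smul, mul_smul, h1, h3, ← hw1, ← hw2, inv_smul_smul, inv_smul_smul]
    exact ⟨rfl, rfl⟩
  · intro g hg
    rw [mem_St] at hg
    rw [mem_filter]
    refine ⟨mem_univ _, ?_⟩
    ext
    · simp [mul_smul, hg.1, hw1]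
    · simp [mul_smul, hg.2, hw2]
  · intro g _; simp
  · intro g _; simp

/-- fixed point count is a class function. -/
theorem fx_conj (w g : G) : fx Ω (w * g * w⁻¹) = fx Ω g := by
  unfold fx
  refine card_bij' (fun x _ => w⁻¹ • x) (fun x _ => w • x) ?_ ?_ ?_ ?_
  · intro x hx
    rw [mem_filter] at hx ⊢
    refine ⟨mem_univ _, ?_⟩
    have := hx.2
    rw [mul_smul, mul_smul, smul_eq_iff_eq_inv_smul] at this
    exact this
  · intro x hx
    rw [mem_filter] at hx ⊢
    refine ⟨mem_univ _, ?_⟩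
    rw [mul_smul, mul_smul, inv_smul_smul, hx.2]
  · intro x _; simp
  · intro x _; simp

/-- The sum of reciprocals of fixed point counts over a two-point stabilizer. -/
noncomputable def T (G : Type*) [Group G] [Fintype G] [MulAction G Ω] (a b : Ω) : ℚ :=
  ∑ g ∈ St G a b, (1 : ℚ) / (fx Ω g : ℚ)

theorem T_smul (w : G) (a b : Ω) : T G (w • a) (w • b) = T G a b := by
  unfold T
  symm
  apply sum_bij' (fun g _ => w * g * w⁻¹) (fun g _ => w⁻¹ * g * w)
  · intro g hg; exact conj_mem_St w hg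
  · intro g hg
    have := conj_mem_St w⁻¹ hg
    simpa using this
  · intro g _; group
  · intro g _; group
  · intro g _; rw [fx_conj]

/-- Key identity: the number of derangements is `n (n-1) T`. -/
theorem card_der_eq (h2 : TwoTrans G Ω) (htr : IsPretransitive G Ω) [Nonempty Ω]
    {α β : Ω} (hαβ : α ≠ β) :
    ((univ.filter fun g : G => fx Ω g = 0).card : ℚ) =
      ((univ : Finset Ω).offDiag.card : ℚ) * T G α β := by
  have h1 : ∑ p ∈ (univ : Finset Ω).offDiag, T G p.1 p.2 =
      ((univ : Finset Ω).offDiag.card : ℚ) * T G α β := by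
    rw [← nsmul_eq_mul, ← sum_const]
    apply sum_congr rfl
    intro p hp
    rw [mem_offDiag] at hp
    obtain ⟨w, hw1, hw2⟩ := h2 α β p.1 p.2 hαβ hp.2.2
    rw [← hw1, ← hw2, T_smul]
  rw [← h1]
  have h3 : ∑ p ∈ (univ : Finset Ω).offDiag, T G p.1 p.2 =
      ∑ g : G, ∑ p ∈ ((univ : Finset Ω).offDiag.filter fun p => g • p.1 = p.1 ∧ g • p.2 = p.2),
        (1 : ℚ) / (fx Ω g : ℚ) := by
    unfold T St
    simp_rw [sum_filter]
    rw [sum_comm]
  rw [h3]
  have h4 : ∀ g : G, ∑ p ∈ ((univ : Finset Ω).offDiag.filter fun p => g • p.1 = p.1 ∧ g • p.2 = p.2),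
        (1 : ℚ) / (fx Ω g : ℚ) = (fx Ω g : ℚ) - (if fx Ω g = 0 then 0 else 1) := by
    intro g
    have h5 : ((univ : Finset Ω).offDiag.filter fun p => g • p.1 = p.1 ∧ g • p.2 = p.2) =
        (univ.filter fun x : Ω => g • x = x).offDiag := by
      ext ⟨a, b⟩
      simp only [mem_filter, mem_offDiag, mem_univ, true_and]
      tauto
    rw [h5, sum_const, offDiag_card, nsmul_eq_mul]
    change ((fx Ω g * fx Ω g - fx Ω g : ℕ) : ℚ) * (1 / (fx Ω g : ℚ)) = _
    by_cases h0 : fx Ω g = 0
    · rw [h0]; simp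
    · have hq : (fx Ω g : ℚ) ≠ 0 := by exact_mod_cast h0
      rw [if_neg h0, Nat.cast_sub (Nat.le_mul_self _)]
      push_cast
      field_simp
  simp_rw [h4]
  rw [sum_sub_distrib]
  have h6 : ∑ g : G, (fx Ω g : ℚ) = Fintype.card G := by
    exact_mod_cast sum_fx_transitive (G := G) htr
  rw [h6, sum_ite]
  simp only [sum_const_zero, zero_add, sum_const, nsmul_eq_mul, mul_one]
  have h7 := card_filter_add_card_filter_not (s := (univ : Finset G))
    (fun g : G => fx Ω g = 0)
  rw [card_univ] at h7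
  have h8 : ((univ.filter fun g : G => fx Ω g = 0).card : ℚ) +
      ((univ.filter fun g : G => ¬ fx Ω g = 0).card : ℚ) = Fintype.card G := by
    exact_mod_cast h7
  linarith

end Cfsg.Agent.Lib.Derange.Lines
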