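import Cfsg.Agent.Lib.Derange.Third
set_option autoImplicit false
set_option linter.unusedSectionVars false
set_option linter.style.haveILetI false
set_option linter.unusedVariables false

namespace Cfsg.Agent.Lib.Derange.M2

open Finset MulAction
open scoped Classical
open Cfsg.Agent.Lib.Derange.Basic Cfsg.Agent.Lib.Derange.Lines

variable {G Ω : Type*} [Group G] [Fintype G] [MulAction G Ω] [Fintype Ω]
variable {α β : Ω}

/-- Existence of a normal complement, regular on the points other than `α`. -/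
theorem exists_regular (h2 : TwoTrans G Ω) (hαβ : α ≠ β)
    (hF : ∀ x : Ω, (∀ g ∈ St G α β, g • x = x) → x = α ∨ x = β)
    (hexp : ∀ g ∈ St G α β, g * g = 1)
    (hodd : Odd (Fintype.card Ω - 1)) :
    ∃ D : Subgroup G, Odd (Nat.card D) ∧ (∀ d ∈ D, d • α = α) ∧
      (∀ k ∈ St G α β, ∀ d ∈ D, k * d * k⁻¹ ∈ D) ∧ (∀ d ∈ D, d • β = β → d = 1) ∧
      (∀ x : Ω, x ≠ α → ∃ d ∈ D, d • β = x) := by
  set A := stabilizer G α with hA
  set K' : Subgroup A := stabilizer A β with hK'
  have memK : ∀ a : A, a ∈ K' ↔ (a : G) • β = β := fun a => Iff.rfl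
  have memSt : ∀ a : A, a ∈ K' ↔ (a : G) ∈ St G α β := by
    intro a
    rw [memK, mem_St]
    exact ⟨fun h => ⟨a.2, h⟩, fun h => h.2⟩
  have hp : IsPGroup 2 K' := by
    rintro ⟨g, hg⟩
    refine ⟨1, ?_⟩
    apply Subtype.ext
    apply Subtype.ext
    have := hexp _ ((memSt g).1 hg)
    simpa [pow_two] using this
  have hidx : K'.index = Fintype.card Ω - 1 := by
    rw [hK', index_stabilizer]
    have : orbit A β = ((univ : Finset Ω).erase α : Finset Ω) := by
      ext x
      simp only [coe_erase, coe_univ, Set.mem_sdiff, Set.mem_univ, Set.mem_singleton_iff, true_and]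
      constructor
      · rintro ⟨a, rfl⟩
        intro h
        have h1 : (a : G) • α = α := a.2
        have h3 : (a : G) • β = α := h
        exact hαβ (smul_left_cancel (a : G) (h1.trans h3.symm))
      · intro hx
        obtain ⟨w, hw1, hw2⟩ := h2 α β α x hαβ (Ne.symm hx)
        exact ⟨⟨w, hw1⟩, hw2⟩
    rw [this, Set.ncard_coe_finset, card_erase_of_mem (mem_univ _), card_univ]
  have hidx' : ¬ 2 ∣ K'.index := by
    rw [hidx]
    intro h
    exact (Nat.not_even_iff_odd.2 hodd) (even_iff_two_dvd.2 h)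
  set P : Sylow 2 A := hp.toSylow hidx' with hPdef
  have hPc : (P : Subgroup A) = K' := hp.toSylow_coe hidx'
  have hcomm : ∀ a b : A, a ∈ K' → b ∈ K' → a * b = b * a := by
    intro a b ha hb
    have ha' := hexp _ ((memSt a).1 ha)
    have hb' := hexp _ ((memSt b).1 hb)
    have hab' := hexp _ ((memSt (a * b)).1 (K'.mul_mem ha hb))
    apply Subtype.ext
    push_cast at hab' ⊢
    have ea : (a : G)⁻¹ = a := inv_eq_of_mul_eq_one_left ha'
    have eb : (b : G)⁻¹ = b := inv_eq_of_mul_eq_one_left hb'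
    have e := inv_eq_of_mul_eq_one_left hab'
    rw [mul_inv_rev, ea, eb] at e
    exact e.symm
  have hP : Subgroup.normalizer ((P : Subgroup A) : Set A) ≤ Subgroup.centralizer ((P : Subgroup A) : Set A) := by
    rw [hPc]
    intro s hs
    -- `s • β` is fixed by the stabilizer
    have hsK : s ∈ K' := by
      have hfix : ∀ g ∈ St G α β, g • ((s : G) • β) = (s : G) • β := by
        intro g hg
        rw [mem_St] at hg
        set g' : A := ⟨g, hg.1⟩ with hg'
        have hg'K : g' ∈ K' := hg.2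
        have h1 : s⁻¹ * g' * s⁻¹⁻¹ ∈ K' :=
          (Subgroup.mem_normalizer_iff.1 (Subgroup.inv_mem _ hs) g').1 hg'K
        have h3 : ((s⁻¹ * g' * s⁻¹⁻¹ : A) : G) • β = β := h1
        simp only [inv_inv, Subgroup.coe_mul, InvMemClass.coe_inv, mul_smul] at h3
        rw [inv_smul_eq_iff] at h3
        exact h3
      rcases hF _ hfix with h | h
      · exfalso
        have h1 : (s : G) • α = α := s.2
        exact hαβ (smul_left_cancel (s : G) (h1.trans h.symm))
      · exact h
    rw [Subgroup.mem_centralizer_iff]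
    intro b hb
    exact (hcomm s b hsK hb).symm
  obtain ⟨D₀, hD₀n, hc⟩ : ∃ D₀ : Subgroup A, D₀.Normal ∧ Subgroup.IsComplement' D₀ K' := by
    refine ⟨(MonoidHom.transferSylow P hP).ker, inferInstance, ?_⟩
    have := MonoidHom.ker_transferSylow_isComplement' P hP
    convert this using 1
    exact hPc.symm
  refine ⟨D₀.map A.subtype, ?_, ?_, ?_, ?_, ?_⟩
  · have e : Nat.card (D₀.map A.subtype) = Nat.card D₀ :=
      Nat.card_congr (D₀.equivMapOfInjective _ A.subtype_injective).symm
    rw [e, ← hc.index_eq_card, hidx]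
    exact hodd
  · rintro _ ⟨d₀, _, rfl⟩
    exact d₀.2
  · rintro k hk _ ⟨d₀, hd₀, rfl⟩
    have hkA : k ∈ A := (mem_St.1 hk).1
    set k' : A := ⟨k, hkA⟩ with hk'
    refine ⟨k' * d₀ * k'⁻¹, hD₀n.conj_mem _ hd₀ k', ?_⟩
    simp [hk']
  · rintro _ ⟨d₀, hd₀, rfl⟩ h
    have h1 : d₀ ∈ K' := h
    have := Subgroup.disjoint_def.1 hc.disjoint hd₀ h1
    rw [this]
    simp
  · intro x hx
    obtain ⟨w, hw1, hw2⟩ := h2 α β α x hαβ (Ne.symm hx)
    obtain ⟨⟨d₀, p⟩, hdp⟩ := hc.2 (⟨w, hw1⟩ : A)
    refine ⟨d₀, ⟨d₀, d₀.2, rfl⟩, ?_⟩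
    have hpβ : ((p : K') : A).1 • β = β := p.2
    have e : (w : G) = ((d₀ : A) : G) * (((p : K') : A) : G) := by
      have := congrArg Subtype.val hdp
      simpa using this.symm
    rw [← hw2, e, mul_smul, hpβ]

theorem st_mul' {g h : G} (hg : g ∈ St G α β) (hh : h ∈ St G α β) : g * h ∈ St G α β := by
  rw [mem_St] at *
  rw [mul_smul, mul_smul, hh.1, hh.2, hg.1, hg.2]
  exact ⟨rfl, rfl⟩

theorem st_inv' {g : G} (hg : g ∈ St G α β) : g⁻¹ ∈ St G α β := by
  rw [mem_St] at *
  rw [inv_smul_eq_iff, inv_smul_eq_iff]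
  exact ⟨hg.1.symm, hg.2.symm⟩

/-- The case of two-point lines with all orbits of size at most 2: the stabilizer has order at
most 2. -/
theorem card_St_le_two [FaithfulSMul G Ω] (h2 : TwoTrans G Ω) (hαβ : α ≠ β)
    (hF : ∀ x : Ω, (∀ g ∈ St G α β, g • x = x) → x = α ∨ x = β)
    (orb : ∀ (x : Ω) (g h : G), g ∈ St G α β → h ∈ St G α β → g • x = x ∨ h • x = x ∨ g • x = h • x)
    (hodd : Odd (Fintype.card Ω - 1)) : (St G α β).card ≤ 2 := by
  have invol : ∀ {g : G}, g ∈ St G α β → ∀ x : Ω, g • g • x = x := by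
    intro g hg x
    rcases orb x g (g * g) hg (st_mul' hg hg) with h | h | h
    · rw [h, h]
    · rwa [mul_smul] at h
    · rw [mul_smul] at h
      have : x = g • x := smul_left_cancel g h
      rw [← this, ← this]
  have swap : ∀ {g h : G}, g ∈ St G α β → h ∈ St G α β → ∀ {x : Ω}, g • x ≠ x → h • x ≠ x →
      g • x = h • x := by
    intro g h hg hh x h1 h3
    rcases orb x g h hg hh with h4 | h4 | h4
    · exact absurd h4 h1
    · exact absurd h4 h3
    · exact h4
  have hexp : ∀ g ∈ St G α β, g * g = 1 := by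
    intro g hg
    apply eq_of_smul_eq_smul (α := Ω)
    intro x
    rw [mul_smul, invol hg, one_smul]
  obtain ⟨D, hDodd, hDα, hDconj, hDβ, hDsurj⟩ := exists_regular h2 hαβ hF hexp hodd
  -- regularity
  have hreg : ∀ {d e : G}, d ∈ D → e ∈ D → d • β = e • β → d = e := by
    intro d e hd he h
    have h1 : (e⁻¹ * d) • β = β := by rw [mul_smul, h, inv_smul_smul]
    have h3 := hDβ _ (D.mul_mem (D.inv_mem he) hd) h1
    exact (inv_mul_eq_one.1 h3).symm
  have hconj : ∀ {g : G}, g ∈ St G α β → ∀ d : G, g • d • β = (g * d * g⁻¹) • β := by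
    intro g hg d
    have hgβ : g⁻¹ • β = β := (mem_St.1 (st_inv' hg)).2
    rw [mul_smul, mul_smul, hgβ]
  have hne_F : ∀ {d : G}, d ∈ D → d ≠ 1 → ∃ g ∈ St G α β, g • d • β ≠ d • β := by
    intro d hd hd1
    by_contra hcon
    push Not at hcon
    rcases hF _ hcon with h | h
    · have h1 := hDα d hd
      exact hαβ (smul_left_cancel d (h1.trans h.symm))
    · exact hd1 (hDβ d hd h)
  -- same-smul property
  have hss : ∀ {g h : G}, g ∈ St G α β → h ∈ St G α β → ∀ y : Ω, h • y = y → h • g • y = g • y := by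
    intro g h hg hh y hy
    by_cases hgy : g • y = y
    · rw [hgy, hy]
    · rcases orb y (h * g) g (st_mul' hh hg) hg with h1 | h1 | h1
      · rw [mul_smul] at h1
        exact absurd (smul_left_cancel h (h1.trans hy.symm)) hgy
      · exact absurd h1 hgy
      · rwa [mul_smul] at h1
  have hodd2 : ∀ a ∈ D, a * a = 1 → a = 1 := by
    intro a ha haa
    have h1 : orderOf (⟨a, ha⟩ : D) ∣ Nat.card D := orderOf_dvd_natCard _
    have h3 : orderOf (⟨a, ha⟩ : D) ∣ 2 := orderOf_dvd_of_pow_eq_one (by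
      apply Subtype.ext
      simpa [pow_two] using haa)
    have h4 : Nat.Coprime (Nat.card D) 2 := by
      exact Nat.coprime_two_right.2 hDodd
    have h5 : orderOf (⟨a, ha⟩ : D) = 1 :=
      Nat.eq_one_of_dvd_coprimes h4 h1 h3
    have h6 := orderOf_eq_one_iff.1 h5
    exact congrArg Subtype.val h6
  -- the key statement
  have key : ∀ {x y : G}, x ∈ D → y ∈ D → x ≠ 1 → ∀ {h : G}, h ∈ St G α β →
      h • x • β = x • β → h • y • β = y • β := by
    intro x y hx hy hx1 h hh hhx
    by_contra hhy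
    -- a separating element
    obtain ⟨k, hk, hky, hkx⟩ : ∃ k ∈ St G α β, k • y • β = y • β ∧ k • x • β ≠ x • β := by
      obtain ⟨v, hv, hvx⟩ := hne_F hx hx1
      by_cases hvy : v • y • β = y • β
      · exact ⟨v, hv, hvy, hvx⟩
      · refine ⟨v * h, st_mul' hv hh, ?_, ?_⟩
        · rw [mul_smul, ← swap hv hh hvy hhy, invol hv]
        · rw [mul_smul, hhx]; exact hvx
    set x' := k * x * k⁻¹ with hx'
    set y' := h * y * h⁻¹ with hy'
    have hx'D : x' ∈ D := hDconj k hk x hx
    have hy'D : y' ∈ D := hDconj h hh y hy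
    have hzD : x * y ∈ D := D.mul_mem hx hy
    have e1 : h * x * h⁻¹ = x := by
      apply hreg (hDconj h hh x hx) hx
      rw [← hconj hh, hhx]
    have e2 : k * y * k⁻¹ = y := by
      apply hreg (hDconj k hk y hy) hy
      rw [← hconj hk, hky]
    have ez1 : h * (x * y) * h⁻¹ = x * y' := by
      rw [hy']
      nth_rewrite 2 [← e1]
      group
    have ez2 : k * (x * y) * k⁻¹ = x' * y := by
      rw [hx']
      nth_rewrite 2 [← e2]
      group
    have hy'ne : y' ≠ y := by
      intro e
      apply hhy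
      rw [hconj hh]
      show y' • β = y • β
      rw [e]
    have hx'ne : x' ≠ x := by
      intro e
      apply hkx
      rw [hconj hk]
      show x' • β = x • β
      rw [e]
    have hm1 : h • (x * y) • β ≠ (x * y) • β := by
      intro e
      rw [hconj hh, ez1] at e
      have := hreg (D.mul_mem hx hy'D) hzD e
      exact hy'ne (mul_left_cancel this)
    have hm2 : k • (x * y) • β ≠ (x * y) • β := by
      intro e
      rw [hconj hk, ez2] at e
      have := hreg (D.mul_mem hx'D hy) hzD e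
      exact hx'ne (mul_right_cancel this)
    have E1 : x * y' = x' * y := by
      have := swap hh hk hm1 hm2
      rw [hconj hh, hconj hk, ez1, ez2] at this
      exact hreg (D.mul_mem hx hy'D) (D.mul_mem hx'D hy) this
    -- `h k` fixes the point of `x y`
    have hhk : (h * k) • (x * y) • β = (x * y) • β := by
      rw [mul_smul, ← swap hh hk hm1 hm2, invol hh]
    have hfx' : h • x' • β = x' • β := by
      have : x' • β = k • x • β := (hconj hk x).symm
      rw [this]
      exact hss hk hh _ hhx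
    have e3 : h * x' * h⁻¹ = x' := by
      apply hreg (hDconj h hh x' hx'D) hx'D
      rw [← hconj hh, hfx']
    have E2 : x' * y' = x * y := by
      have h5 := hconj (st_mul' hh hk) (x * y)
      rw [hhk] at h5
      have h6 : (h * k) * (x * y) * (h * k)⁻¹ = x' * y' := by
        have h7 : (h * k) * (x * y) * (h * k)⁻¹ =
            (h * (k * x * k⁻¹) * h⁻¹) * (h * (k * y * k⁻¹) * h⁻¹) := by group
        rw [h7, e2, ← hx', e3]
      rw [h6] at h5
      exact hreg (D.mul_mem hx'D hy'D) hzD h5.symm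
    set a := y' * y⁻¹ with ha
    have haD : a ∈ D := D.mul_mem hy'D (D.inv_mem hy)
    have haa : a * a = 1 := by
      have e5 : x' = x * y' * y⁻¹ := by rw [E1]; group
      rw [e5] at E2
      have e6 : y' * y⁻¹ * y' = y := by
        have : x * (y' * y⁻¹ * y') = x * y := by rw [← E2]; group
        exact mul_left_cancel this
      calc a * a = (y' * y⁻¹ * y') * y⁻¹ := by rw [ha]; group
        _ = 1 := by rw [e6]; group
    have ha1 := hodd2 a haD haa
    rw [ha, mul_inv_eq_one] at ha1
    exact hy'ne ha1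
  -- conclusion
  have hall : ∀ g ∈ St G α β, g ≠ 1 → ∀ g' ∈ St G α β, g' ≠ 1 → g = g' := by
    intro g hg hg1 g' hg' hg'1
    obtain ⟨u, hu⟩ : ∃ u : Ω, g • u ≠ u := by
      by_contra h
      push Not at h
      exact hg1 (eq_of_smul_eq_smul (α := Ω) (by simpa using h))
    have huα : u ≠ α := by
      rintro rfl
      exact hu (mem_St.1 hg).1
    obtain ⟨d, hd, rfl⟩ := hDsurj u huα
    have hd1 : d ≠ 1 := by
      rintro rfl
      rw [one_smul] at hu
      exact hu (mem_St.1 hg).2
    -- every non-identity element moves `d • β`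
    have hmv : ∀ g'' ∈ St G α β, g'' ≠ 1 → g'' • d • β ≠ d • β := by
      intro g'' hg'' hg''1 hfix
      apply hg''1
      apply eq_of_smul_eq_smul (α := Ω)
      intro z
      rw [one_smul]
      by_cases hzα : z = α
      · rw [hzα]; exact (mem_St.1 hg'').1
      · obtain ⟨e, he, rfl⟩ := hDsurj z hzα
        exact key hd he hd1 hg'' hfix
    have e := swap hg hg' (hmv g hg hg1) (hmv g' hg' hg'1)
    by_contra hne
    have hm : g'⁻¹ * g ∈ St G α β := st_mul' (st_inv' hg') hg
    have hm1 : g'⁻¹ * g ≠ 1 := by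
      intro h
      exact hne (inv_mul_eq_one.1 h).symm
    apply hmv _ hm hm1
    rw [mul_smul, e, inv_smul_smul]
  have h1 : ((St G α β).erase 1).card ≤ 1 := by
    rw [card_le_one]
    intro a ha b hb
    rw [mem_erase] at ha hb
    exact hall a ha.2 ha.1 b hb.2 hb.1
  have h3 := card_erase_add_one (show (1 : G) ∈ St G α β by simp [mem_St])
  omega

/-- A three-cycle in the two-point stabilizer whose orbit is invariant cannot exist when there are
enough points. -/
theorem three_cycle_false (h2 : TwoTrans G Ω) (hαβ : α ≠ β) (hn : 6 ≤ Fintype.card Ω)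
    {z : G} {a b c : Ω} (hab : a ≠ b) (hac : a ≠ c) (hbc : b ≠ c)
    (hza : z • a = b) (hzb : z • b = c) (hzc : z • c = a)
    (hfix : ∀ x, x ≠ a → x ≠ b → x ≠ c → z • x = x)
    (hαa : α ≠ a) (hαb : α ≠ b) (hαc : α ≠ c) (hβa : β ≠ a) (hβb : β ≠ b) (hβc : β ≠ c)
    (hinv : ∀ k ∈ St G α β, ∀ x, (x = a ∨ x = b ∨ x = c) → (k • x = a ∨ k • x = b ∨ k • x = c)) :
    False := by
  obtain ⟨d, hd⟩ : ∃ d : Ω, d ∉ ({a, b, c, α, β} : Finset Ω) := by
    by_contra hcon
    push Not at hcon
    have : (univ : Finset Ω) ⊆ ({a, b, c, α, β} : Finset Ω) := fun x _ => hcon x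
    have h5 := card_le_card this
    have h6 : ({a, b, c, α, β} : Finset Ω).card ≤ 5 := card_le_five
    rw [card_univ] at h5
    omega
  simp only [mem_insert, mem_singleton, not_or] at hd
  obtain ⟨hda, hdb, hdc, hdα, hdβ⟩ := hd
  obtain ⟨w, hw1, hw2⟩ := h2 a b a d hab (Ne.symm hda)
  set e := w • c with he
  have hea : e ≠ a := by
    intro h
    have : w • c = w • a := by rw [hw1]; exact h
    exact hac (smul_left_cancel w this).symm
  have hed : e ≠ d := by
    intro h
    have : w • c = w • b := by rw [hw2]; exact h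
    exact hbc (smul_left_cancel w this).symm
  set z₁ := w * z * w⁻¹ with hz₁
  have hwinv_a : w⁻¹ • a = a := by rw [inv_smul_eq_iff, hw1]
  have hwinv_d : w⁻¹ • d = b := by rw [inv_smul_eq_iff, hw2]
  have hwinv_e : w⁻¹ • e = c := by rw [he, inv_smul_smul]
  have z1a : z₁ • a = d := by
    rw [hz₁, mul_smul, mul_smul, hwinv_a, hza, hw2]
  have z1d : z₁ • d = e := by
    rw [hz₁, mul_smul, mul_smul, hwinv_d, hzb]
  have z1e : z₁ • e = a := by
    rw [hz₁, mul_smul, mul_smul, hwinv_e, hzc, hw1]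
  have z1fix : ∀ x, x ≠ a → x ≠ d → x ≠ e → z₁ • x = x := by
    intro x h1 h3 h4
    rw [hz₁, mul_smul, mul_smul, hfix (w⁻¹ • x), smul_inv_smul]
    · intro h; apply h1; rw [inv_smul_eq_iff] at h; rw [h, hw1]
    · intro h; apply h3; rw [inv_smul_eq_iff] at h; rw [h, hw2]
    · intro h; apply h4; rw [inv_smul_eq_iff] at h; rw [h]
  by_cases heF : e = α ∨ e = β
  · -- second construction
    have hbe : b ≠ e := by
      rcases heF with h | h
      · rw [h]; exact hαb.symm
      · rw [h]; exact hβb.symm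
    have hce : c ≠ e := by
      rcases heF with h | h
      · rw [h]; exact hαc.symm
      · rw [h]; exact hβc.symm
    have z1b : z₁ • b = b := z1fix b hab.symm (Ne.symm hdb) hbe
    have z1c : z₁ • c = c := z1fix c hac.symm (Ne.symm hdc) hce
    set z₂ := z₁ * z * z₁⁻¹ with hz₂
    have hz1inv : z₁⁻¹ • d = a := by rw [inv_smul_eq_iff, z1a]
    have hdb2 : z₂ • d = b := by
      rw [hz₂, mul_smul, mul_smul, hz1inv, hza, z1b]
    have hz2fix : ∀ x, x ≠ d → x ≠ b → x ≠ c → z₂ • x = x := by
      intro x h1 h3 h4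
      rw [hz₂, mul_smul, mul_smul, hfix (z₁⁻¹ • x), smul_inv_smul]
      · intro h; apply h1; rw [inv_smul_eq_iff] at h; rw [h, z1a]
      · intro h; apply h3; rw [inv_smul_eq_iff] at h; rw [h, z1b]
      · intro h; apply h4; rw [inv_smul_eq_iff] at h; rw [h, z1c]
    have hz2St : z₂ ∈ St G α β := by
      rw [mem_St]
      exact ⟨hz2fix α (Ne.symm hdα) hαb hαc, hz2fix β (Ne.symm hdβ) hβb hβc⟩
    have hz2inv := st_inv' hz2St
    have := hinv _ hz2inv b (Or.inr (Or.inl rfl))
    have e1 : z₂⁻¹ • b = d := by rw [inv_smul_eq_iff, hdb2]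
    rw [e1] at this
    rcases this with h | h | h
    · exact hda h
    · exact hdb h
    · exact hdc h
  · -- first construction
    push Not at heF
    have hz1St : z₁ ∈ St G α β := by
      rw [mem_St]
      exact ⟨z1fix α hαa (Ne.symm hdα) (Ne.symm heF.1), z1fix β hβa (Ne.symm hdβ) (Ne.symm heF.2)⟩
    have := hinv _ hz1St a (Or.inl rfl)
    rw [z1a] at this
    rcases this with h | h | h
    · exact hda h
    · exact hdb h
    · exact hdc h

end Cfsg.Agent.Lib.Derange.M2
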