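import Cfsg.Agent.Lib.Derange.Third
set_option autoImplicit false
set_option linter.unusedSectionVars false
set_option linter.style.haveILetI false
set_option linter.unusedVariables false

namespace Cfsg.Agent.Lib.Derange.M3

open Finset MulAction
open scoped Classical
open Cfsg.Agent.Lib.Derange.Basic Cfsg.Agent.Lib.Derange.Lines Cfsg.Agent.Lib.Derange.Third

variable {G Ω : Type*} [Group G] [Fintype G] [MulAction G Ω] [Fintype Ω]

/-- Hypotheses: 2-transitive, lines have three points, all orbits of the two-point stabilizer have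
size at most two. -/
structure Data (G : Type*) [Group G] [Fintype G] [MulAction G Ω] (α β : Ω) : Prop where
  h2 : TwoTrans G Ω
  h3 : Three G Ω
  hab : α ≠ β
  orb : ∀ (x : Ω) (g h : G), g ∈ St G α β → h ∈ St G α β → g • x = x ∨ h • x = x ∨ g • x = h • x

variable {α β : Ω}

theorem st_one : (1 : G) ∈ St G α β := by simp [mem_St]

theorem st_mul {g h : G} (hg : g ∈ St G α β) (hh : h ∈ St G α β) : g * h ∈ St G α β := by
  rw [mem_St] at *
  rw [mul_smul, mul_smul, hh.1, hh.2, hg.1, hg.2]
  exact ⟨rfl, rfl⟩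

theorem mem_F_iff {x : Ω} : x ∈ L G α β ↔ ∀ g ∈ St G α β, g • x = x := by
  rw [mem_L]
  constructor
  · intro h g hg
    rw [mem_St] at hg
    exact h g hg.1 hg.2
  · intro h g h1 h2
    exact h g (mem_St.2 ⟨h1, h2⟩)

theorem mover {x : Ω} (hx : x ∉ L G α β) : ∃ g ∈ St G α β, g • x ≠ x := by
  by_contra hcon
  push Not at hcon
  exact hx (mem_F_iff.2 hcon)

variable (D : Data G α β)
include D

theorem invol {g : G} (hg : g ∈ St G α β) (x : Ω) : g • g • x = x := by
  rcases D.orb x g (g * g) hg (st_mul hg hg) with h | h | h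
  · rw [h, h]
  · rwa [mul_smul] at h
  · rw [mul_smul] at h
    have : x = g • x := smul_left_cancel g h
    rw [← this, ← this]

theorem swap {g h : G} (hg : g ∈ St G α β) (hh : h ∈ St G α β) {x : Ω} (h1 : g • x ≠ x)
    (h2 : h • x ≠ x) : g • x = h • x := by
  rcases D.orb x g h hg hh with h3 | h3 | h3
  · exact absurd h3 h1
  · exact absurd h3 h2
  · exact h3

/-- two points with the same stabilizer in the two point stabilizer -/
def same (G : Type*) [Group G] [Fintype G] [MulAction G Ω] (α β x y : Ω) : Prop :=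
  ∀ g ∈ St G α β, (g • x = x ↔ g • y = y)

omit D in
theorem same_refl (x : Ω) : same G α β x x := fun _ _ => Iff.rfl
omit D in
theorem same_symm {x y : Ω} (h : same G α β x y) : same G α β y x := fun g hg => (h g hg).symm
omit D in
theorem same_trans {x y z : Ω} (h : same G α β x y) (h' : same G α β y z) : same G α β x z :=
  fun g hg => (h g hg).trans (h' g hg)

theorem same_smul {g : G} (hg : g ∈ St G α β) (x : Ω) : same G α β x (g • x) := by
  have key : ∀ (y : Ω) (h : G), h ∈ St G α β → h • y = y → h • g • y = g • y := by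
    intro y h hh hy
    by_cases hgy : g • y = y
    · rw [hgy, hy]
    · rcases D.orb y (h * g) g (st_mul hh hg) hg with h1 | h1 | h1
      · rw [mul_smul] at h1
        exact absurd (smul_left_cancel h (h1.trans hy.symm)) hgy
      · exact absurd h1 hgy
      · rwa [mul_smul] at h1
  intro h hh
  refine ⟨key x h hh, fun h1 => ?_⟩
  have := key (g • x) h hh h1
  rwa [invol D hg] at this

theorem smul_not_F {g : G} (hg : g ∈ St G α β) {x : Ω} (hx : x ∉ L G α β) : g • x ∉ L G α β := by
  intro h
  apply hx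
  have h1 := mem_F_iff.1 h g hg
  have h2 : g • x = x := smul_left_cancel g h1
  rw [h2] at h
  exact absurd h hx

theorem exists_sep {x y : Ω} (hx : x ∉ L G α β) (hy : y ∉ L G α β) (hs : ¬ same G α β x y) :
    (∃ h ∈ St G α β, h • x = x ∧ h • y ≠ y) ∧ (∃ h ∈ St G α β, h • y = y ∧ h • x ≠ x) := by
  have aux : ∀ {x y : Ω}, x ∉ L G α β → y ∉ L G α β → ∀ {g : G}, g ∈ St G α β → g • x = x → g • y ≠ y →
      ∃ h ∈ St G α β, h • y = y ∧ h • x ≠ x := by
    intro x y hx hy g hg h1 h2
    obtain ⟨v, hv, hvx⟩ := mover hx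
    by_cases hvy : v • y = y
    · exact ⟨v, hv, hvy, hvx⟩
    · refine ⟨v * g, st_mul hv hg, ?_, ?_⟩
      · rw [mul_smul, ← swap D hv hg hvy h2, invol D hv]
      · rw [mul_smul, h1]; exact hvx
  unfold same at hs
  push Not at hs
  obtain ⟨g, hg, h⟩ := hs
  rcases h with ⟨h1, h2⟩ | ⟨h1, h2⟩
  · exact ⟨⟨g, hg, h1, h2⟩, aux hx hy hg h1 h2⟩
  · exact ⟨aux hy hx hg h2 h1, ⟨g, hg, h2, h1⟩⟩

theorem ne_of_not_same {x y : Ω} (hs : ¬ same G α β x y) : x ≠ y := by
  rintro rfl
  exact hs (same_refl x)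

theorem closure {x y : Ω} (hx : x ∉ L G α β) (hy : y ∉ L G α β) (hs : ¬ same G α β x y) :
    tp G x y ∉ L G α β ∧ ∀ g ∈ St G α β, (g • tp G x y = tp G x y ↔ (g • x = x ↔ g • y = y)) := by
  have hne := ne_of_not_same D hs
  have h3 := D.h3
  have h2 := D.h2
  set w := tp G x y with hw
  have e1 : tp G x w = y := tp_tp h2 h3 hne
  have e2 : tp G y w = x := by
    have : w = tp G y x := (tp_comm h3 hne).symm
    rw [this]
    exact tp_tp h2 h3 hne.symm
  have hxw : x ≠ w := (tp_ne_left h3 hne).symm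
  have hyw : y ≠ w := (tp_ne_right h3 hne).symm
  have c2 : ∀ {g : G}, g • x = x → g • y ≠ y → g • w ≠ w := by
    intro g h1 h4 h5
    apply h4
    rw [← e1]
    exact tp_fix h3 hxw h1 h5
  have c3 : ∀ {g : G}, g • y = y → g • x ≠ x → g • w ≠ w := by
    intro g h1 h4 h5
    apply h4
    rw [← e2]
    exact tp_fix h3 hyw h1 h5
  obtain ⟨⟨h, hh, hh1, hh2⟩, -⟩ := exists_sep D hx hy hs
  refine ⟨?_, ?_⟩
  · intro hF
    exact c2 hh1 hh2 (mem_F_iff.1 hF h hh)
  · intro g hg
    by_cases gx : g • x = x <;> by_cases gy : g • y = y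
    · exact ⟨fun _ => ⟨fun _ => gy, fun _ => gx⟩, fun _ => tp_fix h3 hne gx gy⟩
    · exact ⟨fun h => absurd h (c2 gx gy), fun h => absurd (h.1 gx) gy⟩
    · exact ⟨fun h => absurd h (c3 gy gx), fun h => absurd (h.2 gy) gx⟩
    · refine ⟨fun _ => ⟨fun h => absurd h gx, fun h => absurd h gy⟩, fun _ => ?_⟩
      -- both moved
      by_contra hgw
      have hmul : g * h ∈ St G α β := st_mul hg hh
      have h5 : (g * h) • y = y := by
        rw [mul_smul, ← swap D hg hh gy hh2, invol D hg]
      have h6 : (g * h) • x ≠ x := by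
        rw [mul_smul, hh1]; exact gx
      have h7 := c3 h5 h6
      have h8 := c2 hh1 hh2
      have h9 := swap D hh hmul h8 h7
      rw [mul_smul] at h9
      have h10 := swap D hg hh hgw h8
      rw [← h10, invol D hg] at h9
      exact hgw h9

/-- The class of a point. -/
noncomputable def A (G : Type*) [Group G] [Fintype G] [MulAction G Ω] (α β x : Ω) : Finset Ω :=
  univ.filter fun y => y ∉ L G α β ∧ same G α β x y

omit D in
theorem mem_A {x y : Ω} : y ∈ A G α β x ↔ y ∉ L G α β ∧ same G α β x y := by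
  simp [A]

theorem same_tp_of {x y y' : Ω} (hx : x ∉ L G α β) (hy : y ∉ L G α β) (hy' : y' ∉ L G α β)
    (hs : ¬ same G α β x y) (hs' : ¬ same G α β x y') (hyy' : same G α β y y') :
    same G α β (tp G x y) (tp G x y') := by
  intro g hg
  rw [(closure D hx hy hs).2 g hg, (closure D hx hy' hs').2 g hg, hyy' g hg]

theorem card_A_le {x y : Ω} (hx : x ∉ L G α β) (hy : y ∉ L G α β) (hs : ¬ same G α β x y) :
    (A G α β y).card ≤ (A G α β (tp G x y)).card := by
  have h2 := D.h2
  have h3 := D.h3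
  have hns : ∀ y' ∈ A G α β y, ¬ same G α β x y' := by
    intro y' hy' h
    exact hs (same_trans h (same_symm (mem_A.1 hy').2))
  apply card_le_card_of_injOn (fun y' => tp G x y')
  · intro y' hy'
    have hy'2 := mem_A.1 hy'
    exact mem_A.2 ⟨(closure D hx hy'2.1 (hns y' hy')).1,
      same_tp_of D hx hy hy'2.1 hs (hns y' hy') hy'2.2⟩
  · intro y₁ hy₁ y₂ hy₂ h
    exact tp_inj h2 h3 (ne_of_not_same D (hns y₁ hy₁)) (ne_of_not_same D (hns y₂ hy₂)) h

theorem card_A_eq {x y : Ω} (hx : x ∉ L G α β) (hy : y ∉ L G α β) :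
    (A G α β x).card = (A G α β y).card := by
  have h2 := D.h2
  have h3 := D.h3
  by_cases hs : same G α β x y
  · congr 1
    ext z
    simp only [mem_A]
    exact ⟨fun h => ⟨h.1, same_trans (same_symm hs) h.2⟩, fun h => ⟨h.1, same_trans hs h.2⟩⟩
  · have hne := ne_of_not_same D hs
    have hw := closure D hx hy hs
    obtain ⟨⟨h, hh, hh1, hh2⟩, ⟨h', hh', hh1', hh2'⟩⟩ := exists_sep D hx hy hs
    set w := tp G x y with hwdef
    have hsxw : ¬ same G α β x w := by
      intro hc
      have := (hc h hh).1 hh1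
      have h5 := (hw.2 h hh).1 this
      exact hh2 (h5.1 hh1)
    have hsyw : ¬ same G α β y w := by
      intro hc
      have := (hc h' hh').1 hh1'
      have h5 := (hw.2 h' hh').1 this
      exact hh2' (h5.2 hh1')
    have e1 : tp G x w = y := tp_tp h2 h3 hne
    have e2' : tp G y x = w := tp_comm h3 hne
    have e2 : tp G y w = x := by
      rw [← e2']
      exact tp_tp h2 h3 hne.symm
    have l1 : (A G α β y).card ≤ (A G α β w).card := card_A_le D hx hy hs
    have l2 : (A G α β w).card ≤ (A G α β (tp G x w)).card := card_A_le D hx hw.1 hsxw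
    rw [e1] at l2
    have hs' : ¬ same G α β y x := fun hc => hs (same_symm hc)
    have l3 : (A G α β x).card ≤ (A G α β (tp G y x)).card := card_A_le D hy hx hs'
    rw [e2'] at l3
    have l4 : (A G α β w).card ≤ (A G α β (tp G y w)).card := card_A_le D hy hw.1 hsyw
    rw [e2] at l4
    omega

theorem same_tp_F {z x : Ω} (hz : z ∈ L G α β) (hx : x ∉ L G α β) :
    tp G z x ∈ A G α β x ∧ tp G z x ≠ x := by
  have h2 := D.h2
  have h3 := D.h3
  have hzx : z ≠ x := by rintro rfl; exact hx hz
  have htz : tp G z x ≠ z := tp_ne_left h3 hzx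
  refine ⟨mem_A.2 ⟨?_, ?_⟩, tp_ne_right h3 hzx⟩
  · intro ht
    have e : L G z (tp G z x) = L G α β := L_eq_of_mem h2 D.hab htz.symm hz ht
    have : x ∈ L G z (tp G z x) := by
      have e1 := tp_tp h2 h3 hzx
      have := (tp_spec (G := G) h3 htz.symm).1
      rwa [e1] at this
    rw [e] at this
    exact hx this
  · intro g hg
    have hgz := mem_F_iff.1 hz g hg
    constructor
    · intro h
      exact tp_fix h3 hzx hgz h
    · intro h
      have e1 := tp_tp h2 h3 hzx
      rw [← e1]
      exact tp_fix h3 htz.symm hgz h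

theorem tp_F_inj {z z' x : Ω} (hz : z ∈ L G α β) (hz' : z' ∈ L G α β) (hx : x ∉ L G α β)
    (h : tp G z x = tp G z' x) : z = z' := by
  have h2 := D.h2
  have h3 := D.h3
  have hzx : z ≠ x := by rintro rfl; exact hx hz
  have hzx' : z' ≠ x := by rintro rfl; exact hx hz'
  have e1 : tp G x (tp G x z) = z := tp_tp h2 h3 hzx.symm
  have e2 : tp G x (tp G x z') = z' := tp_tp h2 h3 hzx'.symm
  rw [← tp_comm h3 hzx.symm, h] at e1
  rw [← tp_comm h3 hzx'.symm] at e2
  rw [← e1, e2]

theorem four_le_card_A {x : Ω} (hx : x ∉ L G α β) : 4 ≤ (A G α β x).card := by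
  have h3 := D.h3
  have hab := D.hab
  have hα : α ∈ L G α β := left_mem_L _ _
  have hβ : β ∈ L G α β := right_mem_L _ _
  have hδ : tp G α β ∈ L G α β := (tp_spec h3 hab).1
  have t1 := same_tp_F D hα hx
  have t2 := same_tp_F D hβ hx
  have t3 := same_tp_F D hδ hx
  have n12 : tp G α x ≠ tp G β x := fun h => hab (tp_F_inj D hα hβ hx h)
  have n13 : tp G α x ≠ tp G (tp G α β) x := fun h =>
    (tp_ne_left h3 hab) (tp_F_inj D hα hδ hx h).symm
  have n23 : tp G β x ≠ tp G (tp G α β) x := fun h =>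
    (tp_ne_right h3 hab) (tp_F_inj D hβ hδ hx h).symm
  have hsub : ({x, tp G α x, tp G β x, tp G (tp G α β) x} : Finset Ω) ⊆ A G α β x := by
    intro y hy
    simp only [mem_insert, mem_singleton] at hy
    rcases hy with rfl | rfl | rfl | rfl
    · exact mem_A.2 ⟨hx, same_refl _⟩
    · exact t1.1
    · exact t2.1
    · exact t3.1
  have := card_le_card hsub
  rwa [card_insert_of_notMem, card_insert_of_notMem, card_insert_of_notMem, card_singleton] at this
  · simpa using n23
  · simp only [mem_insert, mem_singleton, not_or]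
    exact ⟨n12, n13⟩
  · simp only [mem_insert, mem_singleton, not_or]
    exact ⟨t1.2.symm, t2.2.symm, t3.2.symm⟩

theorem even_card_A {x : Ω} (hx : x ∉ L G α β) : Even (A G α β x).card := by
  obtain ⟨g, hg, hgx⟩ := mover hx
  have hsum : ∑ y ∈ A G α β x, (1 : ZMod 2) = 0 := by
    refine sum_involution (fun y _ => g • y) ?_ ?_ ?_ ?_
    · intro y _; decide
    · intro y hy _ h
      exact hgx (((mem_A.1 hy).2 g hg).2 h)
    · intro y hy
      have hy' := mem_A.1 hy
      exact mem_A.2 ⟨smul_not_F D hg hy'.1, same_trans hy'.2 (same_smul D hg y)⟩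
    · intro y _
      exact invol D hg y
  rw [sum_const, nsmul_eq_mul, mul_one] at hsum
  exact even_iff_two_dvd.2 ((ZMod.natCast_eq_zero_iff _ 2).1 hsum)

/-- The number of fixed points of non-identity elements of the stabilizer is determined. -/
theorem fx_formula [FaithfulSMul G Ω] {g : G} (hg : g ∈ St G α β) (hg1 : g ≠ 1) {x₀ : Ω}
    (hx₀ : x₀ ∉ L G α β) :
    2 * fx Ω g + (A G α β x₀).card = Fintype.card Ω + 3 := by
  have h2 := D.h2
  have h3 := D.h3
  obtain ⟨x₁, hx₁⟩ : ∃ z : Ω, g • z ≠ z := by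
    by_contra h
    push Not at h
    exact hg1 (eq_of_smul_eq_smul (α := Ω) (by simpa using h))
  have hx₁F : x₁ ∉ L G α β := fun h => hx₁ (mem_F_iff.1 h g hg)
  rw [card_A_eq D hx₀ hx₁F]
  set Y := (univ.filter fun x : Ω => g • x = x) with hY
  set F := L G α β with hF
  set Z := (univ.filter fun x : Ω => g • x ≠ x) with hZ
  have hFY : F ⊆ Y := by
    intro z hz
    simp only [hY, mem_filter, mem_univ, true_and]
    exact mem_F_iff.1 hz g hg
  have hAZ : A G α β x₁ ⊆ Z := by
    intro z hz
    simp only [hZ, mem_filter, mem_univ, true_and]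
    intro h
    exact hx₁ (((mem_A.1 hz).2 g hg).2 h)
  have hbij : (Y \ F).card = (Z \ A G α β x₁).card := by
    refine card_bij' (fun y _ => tp G x₁ y) (fun y _ => tp G x₁ y) ?_ ?_ ?_ ?_
    · intro y hy
      rw [mem_sdiff] at hy
      have hgy : g • y = y := by simpa [hY] using hy.1
      have hsn : ¬ same G α β x₁ y := fun h => hx₁ ((h g hg).2 hgy)
      have hc := closure D hx₁F hy.2 hsn
      obtain ⟨⟨h, hh, hh1, hh2⟩, -⟩ := exists_sep D hx₁F hy.2 hsn
      rw [mem_sdiff]
      constructor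
      · simp only [hZ, mem_filter, mem_univ, true_and]
        intro hw
        have := (hc.2 g hg).1 hw
        exact hx₁ (this.2 hgy)
      · intro hw
        have h5 := ((mem_A.1 hw).2 h hh).1 hh1
        have h6 := (hc.2 h hh).1 h5
        exact hh2 (h6.1 hh1)
    · intro z hz
      rw [mem_sdiff] at hz
      have hgz : g • z ≠ z := by simpa [hZ] using hz.1
      have hzF : z ∉ F := fun h => hgz (mem_F_iff.1 h g hg)
      have hsn : ¬ same G α β x₁ z := fun h => hz.2 (mem_A.2 ⟨hzF, h⟩)
      have hc := closure D hx₁F hzF hsn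
      rw [mem_sdiff]
      refine ⟨?_, hc.1⟩
      simp only [hY, mem_filter, mem_univ, true_and]
      exact (hc.2 g hg).2 ⟨fun h => absurd h hx₁, fun h => absurd h hgz⟩
    · intro y hy
      rw [mem_sdiff] at hy
      have hgy : g • y = y := by simpa [hY] using hy.1
      have hne : x₁ ≠ y := by rintro rfl; exact hx₁ hgy
      exact tp_tp h2 h3 hne
    · intro z hz
      rw [mem_sdiff] at hz
      have hgz : g • z ≠ z := by simpa [hZ] using hz.1
      have hzF : z ∉ F := fun h => hgz (mem_F_iff.1 h g hg)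
      have hsn : ¬ same G α β x₁ z := fun h => hz.2 (mem_A.2 ⟨hzF, h⟩)
      exact tp_tp h2 h3 (ne_of_not_same D hsn)
  rw [card_sdiff_of_subset hFY, card_sdiff_of_subset hAZ] at hbij
  have hF3 : F.card = 3 := h3 α β D.hab
  have hYZ : Y.card + Z.card = Fintype.card Ω := by
    have := card_filter_add_card_filter_not (s := (univ : Finset Ω)) (fun x : Ω => g • x = x)
    rwa [card_univ] at this
  have hY' : fx Ω g = Y.card := rfl
  have c1 := card_le_card hFY
  have c2 := card_le_card hAZ
  omega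

end Cfsg.Agent.Lib.Derange.M3
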