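import Cfsg.Agent.Lib.Derange.M3
set_option autoImplicit false
set_option linter.unusedSectionVars false
set_option linter.style.haveILetI false
set_option linter.unusedVariables false

namespace Cfsg.Agent.Lib.Derange.M3b

open Finset MulAction
open scoped Classical
open Cfsg.Agent.Lib.Derange.Basic Cfsg.Agent.Lib.Derange.Lines Cfsg.Agent.Lib.Derange.Third
open Cfsg.Agent.Lib.Derange.M3

variable {G Ω : Type*} [Group G] [Fintype G] [MulAction G Ω] [Fintype Ω]
variable {α β : Ω}

/-- The other point in the orbit of `x`. -/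
noncomputable def pt (G : Type*) [Group G] [Fintype G] [MulAction G Ω] (α β x : Ω) : Ω :=
  if h : ∃ g ∈ St G α β, g • x ≠ x then (Classical.choose h) • x else x

/-- The centre attached to `x`. -/
noncomputable def ct (G : Type*) [Group G] [Fintype G] [MulAction G Ω] (α β x : Ω) : Ω :=
  tp G x (pt G α β x)

/-- The plane through three points. -/
noncomputable def Pl (G : Type*) [Group G] [Fintype G] [MulAction G Ω] (a x y : Ω) : Finset Ω :=
  univ.filter fun z => ∀ g : G, g • a = a → g • x = x → g • y = y → g • z = z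

theorem mem_Pl {a x y z : Ω} : z ∈ Pl G a x y ↔ ∀ g : G, g • a = a → g • x = x → g • y = y → g • z = z := by
  simp [Pl]

variable (D : Data G α β)
include D

theorem pt_spec {x : Ω} (hx : x ∉ L G α β) {g : G} (hg : g ∈ St G α β) (hgx : g • x ≠ x) :
    g • x = pt G α β x := by
  have h := mover hx
  unfold pt
  rw [dif_pos h]
  obtain ⟨h1, h2⟩ := Classical.choose_spec h
  exact swap D hg h1 hgx h2

theorem pt_ne {x : Ω} (hx : x ∉ L G α β) : pt G α β x ≠ x := by
  obtain ⟨g, hg, hgx⟩ := mover hx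
  rw [← pt_spec D hx hg hgx]
  exact hgx

theorem pt_not_F {x : Ω} (hx : x ∉ L G α β) : pt G α β x ∉ L G α β := by
  obtain ⟨g, hg, hgx⟩ := mover hx
  rw [← pt_spec D hx hg hgx]
  exact smul_not_F D hg hx

theorem same_pt {x : Ω} (hx : x ∉ L G α β) : same G α β x (pt G α β x) := by
  obtain ⟨g, hg, hgx⟩ := mover hx
  rw [← pt_spec D hx hg hgx]
  exact same_smul D hg x

theorem pt_pt {x : Ω} (hx : x ∉ L G α β) : pt G α β (pt G α β x) = x := by
  obtain ⟨g, hg, hgx⟩ := mover hx
  have e := pt_spec D hx hg hgx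
  have hp := pt_not_F D hx
  have h1 : g • pt G α β x ≠ pt G α β x := by
    rw [← e, invol D hg]
    exact hgx.symm
  rw [← pt_spec D hp hg h1, ← e, invol D hg]

theorem ct_mem {x : Ω} (hx : x ∉ L G α β) : ct G α β x ∈ L G α β := by
  have h3 := D.h3
  have hne : x ≠ pt G α β x := (pt_ne D hx).symm
  refine mem_F_iff.2 fun g hg => ?_
  unfold ct
  by_cases hgx : g • x = x
  · exact tp_fix h3 hne hgx (((same_pt D hx) g hg).1 hgx)
  · have e := pt_spec D hx hg hgx
    have e2 : g • pt G α β x = x := by rw [← e, invol D hg]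
    rw [← tp_smul h3 hne, e2, e, tp_comm h3 hne.symm]

theorem tp_ct {x : Ω} (hx : x ∉ L G α β) : tp G (ct G α β x) x = pt G α β x := by
  have h2 := D.h2
  have h3 := D.h3
  have hne : x ≠ pt G α β x := (pt_ne D hx).symm
  have hne2 : x ≠ ct G α β x := (tp_ne_left h3 hne).symm
  rw [tp_comm h3 hne2]
  exact tp_tp h2 h3 hne

theorem ct_pt {x : Ω} (hx : x ∉ L G α β) : ct G α β (pt G α β x) = ct G α β x := by
  have h3 := D.h3
  have hne : x ≠ pt G α β x := (pt_ne D hx).symm
  unfold ct
  rw [pt_pt D hx]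
  exact tp_comm h3 hne

/-- Points in the same class have the same centre, when classes have four points. -/
theorem ct_same (hL : ∀ x, x ∉ L G α β → (A G α β x).card = 4) {x s : Ω} (hx : x ∉ L G α β)
    (hs : s ∉ L G α β) (hss : same G α β x s) : ct G α β s = ct G α β x := by
  have h2 := D.h2
  have h3 := D.h3
  by_cases h1 : s = x
  · rw [h1]
  by_cases h4 : s = pt G α β x
  · rw [h4, ct_pt D hx]
  have hct := ct_mem D hx
  have ht := same_tp_F D hct hs
  set t := tp G (ct G α β x) s with htdef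
  have hcs : ct G α β x ≠ s := by rintro e; exact hs (e ▸ hct)
  have ht_x : t ≠ x := by
    intro e
    have e1 : tp G (ct G α β x) t = s := tp_tp h2 h3 hcs
    rw [e, tp_ct D hx] at e1
    exact h4 e1.symm
  have ht_p : t ≠ pt G α β x := by
    intro e
    have e1 : tp G (ct G α β x) t = s := tp_tp h2 h3 hcs
    have e2 : tp G (ct G α β x) (pt G α β x) = x := by
      rw [← tp_ct D hx]
      exact tp_tp h2 h3 (by rintro e'; exact hx (e' ▸ hct))
    rw [e, e2] at e1
    exact h1 e1.symm
  have hsA : s ∈ A G α β x := mem_A.2 ⟨hs, hss⟩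
  have htA : t ∈ A G α β x := mem_A.2 ⟨(mem_A.1 ht.1).1, same_trans hss (mem_A.1 ht.1).2⟩
  have hxA : x ∈ A G α β x := mem_A.2 ⟨hx, same_refl _⟩
  have hpA : pt G α β x ∈ A G α β x := mem_A.2 ⟨pt_not_F D hx, same_pt D hx⟩
  have hset : A G α β x = {x, pt G α β x, s, t} := by
    symm
    apply eq_of_subset_of_card_le
    · intro y hy
      simp only [mem_insert, mem_singleton] at hy
      rcases hy with rfl | rfl | rfl | rfl <;> assumption
    · rw [hL x hx, card_insert_of_notMem, card_insert_of_notMem, card_insert_of_notMem,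
        card_singleton]
      · simpa using ht.2.symm
      · simp only [mem_insert, mem_singleton, not_or]
        exact ⟨Ne.symm h4, ht_p.symm⟩
      · simp only [mem_insert, mem_singleton, not_or]
        exact ⟨(pt_ne D hx).symm, Ne.symm h1, ht_x.symm⟩
  have hps : pt G α β s ∈ A G α β x :=
    mem_A.2 ⟨pt_not_F D hs, same_trans hss (same_pt D hs)⟩
  rw [hset] at hps
  simp only [mem_insert, mem_singleton] at hps
  have e : pt G α β s = t := by
    rcases hps with h | h | h | h
    · exfalso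
      apply h4
      have := pt_pt D hs
      rw [h] at this
      exact this.symm
    · exfalso
      apply h1
      have := pt_pt D hs
      rw [h, pt_pt D hx] at this
      exact this.symm
    · exact absurd h (pt_ne D hs)
    · exact h
  unfold ct
  rw [e]
  rw [tp_comm h3 hcs.symm] at htdef
  have : tp G s t = tp G s (tp G s (ct G α β x)) := by rw [htdef]
  rw [this, tp_tp h2 h3 hcs.symm]
  rfl

/-- Bound on the size of a plane. -/
theorem card_Pl_le (hL : ∀ x, x ∉ L G α β → (A G α β x).card = 4) {a x y : Ω} (hax : a ≠ x)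
    (hy : y ∉ L G a x) : (Pl G a x y).card ≤ 7 := by
  have h2 := D.h2
  have h3 := D.h3
  obtain ⟨w, hw1, hw2⟩ := h2 a x α β hax D.hab
  have hy0 : w • y ∉ L G α β := by
    intro h
    rw [← hw1, ← hw2, smul_mem_L_iff] at h
    exact hy h
  have hcard : (L G α β ∪ A G α β (w • y)).card ≤ 7 := by
    have := card_union_le (L G α β) (A G α β (w • y))
    rw [h3 α β D.hab, hL _ hy0] at this
    exact this
  refine le_trans ?_ hcard
  apply card_le_card_of_injOn (fun z => w • z)
  · intro z hz
    have hz' := mem_Pl.1 hz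
    -- elements of the stabilizer fixing `w • y` fix `w • z`
    have hfix : ∀ g ∈ St G α β, g • (w • y) = w • y → g • (w • z) = w • z := by
      intro g hg h
      rw [mem_St] at hg
      have e1 : (w⁻¹ * g * w) • a = a := by
        rw [mul_smul, mul_smul, hw1, hg.1, ← hw1, inv_smul_smul]
      have e2 : (w⁻¹ * g * w) • x = x := by
        rw [mul_smul, mul_smul, hw2, hg.2, ← hw2, inv_smul_smul]
      have e3 : (w⁻¹ * g * w) • y = y := by
        rw [mul_smul, mul_smul, h, inv_smul_smul]
      have e4 := hz' _ e1 e2 e3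
      rw [mul_smul, mul_smul, inv_smul_eq_iff] at e4
      exact e4
    simp only [coe_union, Set.mem_union, mem_coe]
    by_cases hzF : w • z ∈ L G α β
    · exact Or.inl hzF
    · right
      refine mem_A.2 ⟨hzF, fun g hg => ⟨hfix g hg, fun h => ?_⟩⟩
      by_contra hgy
      obtain ⟨v, hv, hvz⟩ := mover hzF
      have hvy : v • (w • y) ≠ w • y := fun h' => hvz (hfix v hv h')
      have e := swap D hg hv hgy hvy
      -- `v⁻¹ g` fixes `w • y`, so it fixes `w • z`
      have hmem : v * g ∈ St G α β := st_mul hv hg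
      have e1 : (v * g) • (w • y) = w • y := by
        rw [mul_smul, e, invol D hv]
      have e2 := hfix _ hmem e1
      rw [mul_smul, h] at e2
      exact hvz e2
  · intro z _ z' _ h
    exact smul_left_cancel w h

/-- Points in different classes have the same centre. -/
theorem ct_diff (hL : ∀ x, x ∉ L G α β → (A G α β x).card = 4) {x y : Ω} (hx : x ∉ L G α β)
    (hy : y ∉ L G α β) (hs : ¬ same G α β x y) : ct G α β x = ct G α β y := by
  have h2 := D.h2
  have h3 := D.h3
  by_contra hab
  set a := ct G α β x with ha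
  set b := ct G α β y with hb
  have haF : a ∈ L G α β := ct_mem D hx
  have hbF : b ∈ L G α β := ct_mem D hy
  set p := pt G α β x with hp
  set q := pt G α β y with hq
  have hpF : p ∉ L G α β := pt_not_F D hx
  have hqF : q ∉ L G α β := pt_not_F D hy
  have hxy := ne_of_not_same D hs
  obtain ⟨⟨h, hh, hh1, hh2⟩, ⟨h', hh', hh1', hh2'⟩⟩ := exists_sep D hx hy hs
  have hsxp : same G α β x p := same_pt D hx
  have hsyq : same G α β y q := same_pt D hy
  have hsub : tp G x y ∉ L G α β ∧ _ := closure D hx hy hs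
  set w := tp G x y with hw
  -- `tp p q = w`
  have hpq : tp G p q = w := by
    have hg0 : h' * h ∈ St G α β := st_mul hh' hh
    have e1 : (h' * h) • x = p := by
      rw [mul_smul, hh1]; exact pt_spec D hx hh' hh2'
    have e2 : (h' * h) • y = q := by
      rw [mul_smul, pt_spec D hy hh hh2]
      exact (hsyq h' hh').1 hh1'
    have e3 : (h' * h) • w = w := by
      refine (hsub.2 _ hg0).2 ⟨fun h5 => ?_, fun h5 => ?_⟩
      · rw [e1] at h5; exact absurd h5 (pt_ne D hx)
      · rw [e2] at h5; exact absurd h5 (pt_ne D hy)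
    have e4 := tp_smul (G := G) h3 hxy (h' * h)
    rw [e1, e2] at e4
    rw [e4]
    exact e3
  have hpa : tp G a x = p := tp_ct D hx
  have hqb : tp G b y = q := tp_ct D hy
  have hay : a ≠ y := by rintro e; exact hy (e ▸ haF)
  have hax : a ≠ x := by rintro e; exact hx (e ▸ haF)
  have hsxpn : ¬ same G α β p y := fun h5 => hs (same_trans hsxp h5)
  have hpy : p ≠ y := ne_of_not_same D hsxpn
  have hv := same_tp_F D haF hy
  set v := tp G a y with hvdef
  have hvF : v ∉ L G α β := (mem_A.1 hv.1).1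
  have hsyv : same G α β y v := (mem_A.1 hv.1).2
  have hsxvn : ¬ same G α β x v := fun h5 => hs (same_trans h5 (same_symm hsyv))
  have hspvn : ¬ same G α β p v := fun h5 => hsxvn (same_trans hsxp h5)
  have hpv : p ≠ v := ne_of_not_same D hspvn
  have hpq' : p ≠ q := by
    intro e
    exact hs (same_trans hsxp (e ▸ same_symm hsyq))
  set e := tp G p y with hedef
  set r := tp G p v with hrdef
  have hsub2 : e ∉ L G α β ∧ ∀ g ∈ St G α β, (g • e = e ↔ (g • p = p ↔ g • y = y)) :=
    closure D hpF hy hsxpn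
  have hsy_e : ¬ same G α β y e := by
    intro h5
    have h6 := (h5 h' hh').1 hh1'
    have h7 := (hsub2.2 h' hh').1 h6
    have h8 : h' • p = p := h7.2 hh1'
    exact hh2' ((hsxp h' hh').2 h8)
  have hsyw : ¬ same G α β y w := by
    intro h5
    have h6 := (h5 h' hh').1 hh1'
    have h7 := (hsub.2 h' hh').1 h6
    exact hh2' (h7.2 hh1')
  have hsxw : ¬ same G α β x w := by
    intro h5
    have h6 := (h5 h hh).1 hh1
    have h7 := (hsub.2 h hh).1 h6
    exact hh2 (h7.1 hh1)
  have hse : same G α β w e := by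
    intro g hg
    rw [(hsub.2 g hg), (hsub2.2 g hg), hsxp g hg]
  have hsxe : ¬ same G α β x e := fun h5 => hsxw (same_trans h5 (same_symm hse))
  have hwe : w ≠ e := by
    intro h5
    have e1 : tp G y x = w := tp_comm h3 hxy
    have e2 : tp G y p = e := tp_comm h3 hpy
    have := tp_inj h2 h3 hxy.symm hpy.symm (by rw [e1, e2, h5])
    exact (pt_ne D hx) this.symm
  have hyv : y ≠ v := hv.2.symm
  -- the seven points are in the plane
  have hmemr : r ∈ Pl G a x y := by
    refine mem_Pl.2 fun g g1 g2 g3 => ?_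
    have gp : g • p = p := by rw [← hpa]; exact tp_fix h3 hax g1 g2
    have gv : g • v = v := tp_fix h3 hay g1 g3
    exact tp_fix h3 hpv gp gv
  have hpl : p ∈ Pl G a x y := mem_Pl.2 fun g g1 g2 g3 => by
    rw [← hpa]; exact tp_fix h3 hax g1 g2
  have hvl : v ∈ Pl G a x y := mem_Pl.2 fun g g1 g2 g3 => tp_fix h3 hay g1 g3
  have hwl : w ∈ Pl G a x y := mem_Pl.2 fun g g1 g2 g3 => tp_fix h3 hxy g2 g3
  have hel : e ∈ Pl G a x y := mem_Pl.2 fun g g1 g2 g3 =>
    tp_fix h3 hpy (mem_Pl.1 hpl g g1 g2 g3) g3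
  have hal : a ∈ Pl G a x y := mem_Pl.2 fun g g1 g2 g3 => g1
  have hxl : x ∈ Pl G a x y := mem_Pl.2 fun g g1 g2 g3 => g2
  have hyl : y ∈ Pl G a x y := mem_Pl.2 fun g g1 g2 g3 => g3
  have hyL : y ∉ L G a x := by
    intro hmem
    by_cases hya : y = a
    · exact hay hya.symm
    by_cases hyx : y = x
    · exact hxy hyx.symm
    have e1 : y = p := by
      rw [← hpa]
      exact eq_tp h3 hax hmem hya hyx
    exact hpy e1.symm
  have hcard := card_Pl_le D hL hax hyL
  have hset : Pl G a x y = {a, x, p, y, v, w, e} := by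
    symm
    apply eq_of_subset_of_card_le
    · intro z hz
      simp only [mem_insert, mem_singleton] at hz
      rcases hz with rfl | rfl | rfl | rfl | rfl | rfl | rfl <;> assumption
    · refine le_trans hcard ?_
      have n1 : x ≠ p := (pt_ne D hx).symm
      have n2 : a ≠ p := by rintro e'; exact hpF (e' ▸ haF)
      have n3 : a ≠ v := by rintro e'; exact hvF (e' ▸ haF)
      have n4 : a ≠ w := by rintro e'; exact hsub.1 (e' ▸ haF)
      have n5 : a ≠ e := by rintro e'; exact hsub2.1 (e' ▸ haF)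
      have n6 : x ≠ v := ne_of_not_same D hsxvn
      have n7 : x ≠ w := ne_of_not_same D hsxw
      have n8 : x ≠ e := ne_of_not_same D hsxe
      have n9 : p ≠ w := fun e' => hsxw (e' ▸ hsxp)
      have n10 : p ≠ e := fun e' => hsxe (e' ▸ hsxp)
      have n11 : y ≠ w := ne_of_not_same D hsyw
      have n12 : y ≠ e := ne_of_not_same D hsy_e
      have n13 : v ≠ w := fun e' => hsyw (e' ▸ hsyv)
      have n14 : v ≠ e := fun e' => hsy_e (e' ▸ hsyv)
      rw [card_insert_of_notMem, card_insert_of_notMem, card_insert_of_notMem,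
        card_insert_of_notMem, card_insert_of_notMem, card_insert_of_notMem, card_singleton]
      · simpa using hwe
      · simp only [mem_insert, mem_singleton, not_or]
        exact ⟨n13, n14⟩
      · simp only [mem_insert, mem_singleton, not_or]
        exact ⟨hyv, n11, n12⟩
      · simp only [mem_insert, mem_singleton, not_or]
        exact ⟨hpy, hpv, n9, n10⟩
      · simp only [mem_insert, mem_singleton, not_or]
        exact ⟨n1, hxy, n6, n7, n8⟩
      · simp only [mem_insert, mem_singleton, not_or]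
        exact ⟨hax, n2, hay, n3, n4, n5⟩
  rw [hset] at hmemr
  simp only [mem_insert, mem_singleton] at hmemr
  have hrv : tp G p r = v := tp_tp h2 h3 hpv
  have hpr : r ≠ p := tp_ne_left h3 hpv
  have hvr : r ≠ v := tp_ne_right h3 hpv
  have epa : tp G p a = x := by
    rw [tp_comm h3 (by exact fun e' => hpF (e' ▸ haF) : a ≠ p)]
    rw [← hpa]
    exact tp_tp h2 h3 hax
  have epx : tp G p x = a := by
    rw [tp_comm h3 (pt_ne D hx).symm]
    rfl
  rcases hmemr with h5 | h5 | h5 | h5 | h5 | h5 | h5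
  · -- r = a
    rw [h5, epa] at hrv
    exact hsxvn (hrv ▸ same_refl x)
  · -- r = x
    rw [h5, epx] at hrv
    exact hvF (hrv ▸ haF)
  · exact hpr h5
  · -- r = y
    rw [h5] at hrv
    exact hsy_e (by rw [hedef, hrv]; exact hsyv)
  · exact hvr h5
  · -- r = w
    rw [h5, ← hpq, tp_tp h2 h3 hpq'] at hrv
    -- q = v
    have e1 : tp G y v = a := by
      rw [hvdef, ← tp_comm h3 hay]
      exact tp_tp h2 h3 hay.symm
    have hby : b ≠ y := by rintro e'; exact hy (e' ▸ hbF)
    have e2 : tp G y q = b := by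
      rw [← hqb, ← tp_comm h3 hby]
      exact tp_tp h2 h3 hby.symm
    rw [hrv] at e2
    rw [e1] at e2
    exact hab e2
  · -- r = e
    have := tp_inj h2 h3 hpv hpy (h5.trans hedef)
    exact hyv this.symm

/-- The final contradiction in the case where all classes have four points. -/
theorem false_of_four (hL : ∀ x, x ∉ L G α β → (A G α β x).card = 4) {x₀ : Ω}
    (hx₀ : x₀ ∉ L G α β) : False := by
  have h2 := D.h2
  have h3 := D.h3
  have hconst : ∀ x y : Ω, x ∉ L G α β → y ∉ L G α β → ct G α β x = ct G α β y := by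
    intro x y hx hy
    by_cases hs : same G α β x y
    · exact (ct_same D hL hx hy hs).symm
    · exact ct_diff D hL hx hy hs
  set z₀ := ct G α β x₀ with hz₀
  have hz₀F : z₀ ∈ L G α β := ct_mem D hx₀
  obtain ⟨z₁, hz₁F, hz₁⟩ : ∃ z₁ ∈ L G α β, z₁ ≠ z₀ := by
    by_cases h : α = z₀
    · exact ⟨β, right_mem_L _ _, fun e => D.hab (h.trans e.symm)⟩
    · exact ⟨α, left_mem_L _ _, h⟩
  have hne : z₀ ≠ z₁ := hz₁.symm
  set z₂ := tp G z₀ z₁ with hz₂
  have hL1 : L G z₀ z₁ = L G α β := L_eq_of_mem h2 D.hab hne hz₀F hz₁F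
  have hz₂F : z₂ ∈ L G α β := by rw [← hL1]; exact (tp_spec h3 hne).1
  have hn12 : z₁ ≠ z₂ := (tp_ne_right h3 hne).symm
  obtain ⟨ρ, hρ1, hρ2⟩ := h2 z₀ z₁ z₁ z₂ hne hn12
  have hL2 : L G z₁ z₂ = L G α β := L_eq_of_mem h2 D.hab hn12 hz₁F hz₂F
  have hSt1 : St G z₀ z₁ = St G α β := St_eq_of_mem h2 D.hab hne hz₀F hz₁F
  have hSt2 : St G z₁ z₂ = St G α β := St_eq_of_mem h2 D.hab hn12 hz₁F hz₂F
  have hρx : ρ • x₀ ∉ L G α β := by
    rw [← hL2, ← hρ1, ← hρ2, smul_mem_L_iff, hL1]
    exact hx₀
  have hpt : pt G α β (ρ • x₀) = ρ • pt G α β x₀ := by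
    obtain ⟨g, hg, hgx⟩ := mover hx₀
    have hg' : ρ * g * ρ⁻¹ ∈ St G α β := by
      have := conj_mem_St ρ (show g ∈ St G z₀ z₁ by rw [hSt1]; exact hg)
      rwa [hρ1, hρ2, hSt2] at this
    have e1 : (ρ * g * ρ⁻¹) • ρ • x₀ = ρ • g • x₀ := by
      rw [mul_smul, mul_smul, inv_smul_smul]
    have hmove : (ρ * g * ρ⁻¹) • ρ • x₀ ≠ ρ • x₀ := by
      rw [e1]
      exact fun h => hgx (smul_left_cancel ρ h)
    rw [← pt_spec D hρx hg' hmove, e1, pt_spec D hx₀ hg hgx]
  have hct : ct G α β (ρ • x₀) = ρ • z₀ := by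
    show tp G (ρ • x₀) (pt G α β (ρ • x₀)) = ρ • tp G x₀ (pt G α β x₀)
    rw [hpt, tp_smul h3 (pt_ne D hx₀).symm]
  have := hconst (ρ • x₀) x₀ hρx hx₀
  rw [hct, hρ1] at this
  exact hz₁ this

end Cfsg.Agent.Lib.Derange.M3b
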