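import Cfsg.Agent.Lib.Derange.M3b
set_option autoImplicit false
set_option linter.unusedSectionVars false
set_option linter.style.haveILetI false
set_option linter.unusedVariables false

namespace Cfsg.Agent.Lib.Derange.M3c

open Finset MulAction
open scoped Classical
open Cfsg.Agent.Lib.Derange.Basic Cfsg.Agent.Lib.Derange.Lines Cfsg.Agent.Lib.Derange.Third
open Cfsg.Agent.Lib.Derange.M3 Cfsg.Agent.Lib.Derange.M3b

variable {G Ω : Type*} [Group G] [Fintype G] [MulAction G Ω] [Fintype Ω]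
variable {α β : Ω}

/-- In the case of three-point lines with all orbits of size at most two, the Jensen criterion
holds. -/
theorem jensen_crit [FaithfulSMul G Ω] (D : Data G α β) (hf : 2 ≤ (St G α β).card) {t : ℕ}
    (hsum : ∑ g ∈ St G α β, fx Ω g = t * (St G α β).card)
    (ht : 2 * t = Fintype.card Ω + 3) :
    (2 * ((St G α β).card : ℤ) - 1) * (t : ℤ) ≤ (Fintype.card Ω : ℤ) * ((St G α β).card : ℤ) := by
  set f := (St G α β).card with hfdef
  set n := Fintype.card Ω with hn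
  have h1mem : (1 : G) ∈ St G α β := st_one
  obtain ⟨g₀, hg₀, hg₀1⟩ : ∃ g ∈ St G α β, g ≠ 1 := by
    obtain ⟨a, ha, b, hb, hab⟩ := one_lt_card.1 (by omega : 1 < (St G α β).card)
    by_cases h : a = 1
    · exact ⟨b, hb, fun e => hab (h.trans e.symm)⟩
    · exact ⟨a, ha, h⟩
  obtain ⟨x₀, hx₀⟩ : ∃ z : Ω, g₀ • z ≠ z := by
    by_contra h
    push Not at h
    exact hg₀1 (eq_of_smul_eq_smul (α := Ω) (by simpa using h))
  have hx₀F : x₀ ∉ L G α β := fun h => hx₀ (mem_F_iff.1 h g₀ hg₀)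
  set ℓ := (A G α β x₀).card with hℓ
  have hform : ∀ g ∈ St G α β, g ≠ 1 → 2 * fx Ω g + ℓ = n + 3 := fun g hg hg1 =>
    fx_formula D hg hg1 hx₀F
  have hℓ4 : 4 ≤ ℓ := four_le_card_A D hx₀F
  have hℓeven : Even ℓ := even_card_A D hx₀F
  have hall : ∀ x, x ∉ L G α β → (A G α β x).card = ℓ := fun x hx => card_A_eq D hx hx₀F
  have hne4 : ℓ ≠ 4 := by
    intro h
    exact false_of_four D (fun x hx => by rw [hall x hx, h]) hx₀F
  have hℓ6 : 6 ≤ ℓ := by
    obtain ⟨k, hk⟩ := hℓeven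
    omega
  -- summing
  have hsplit := add_sum_erase (St G α β) (fun g => fx Ω g) h1mem
  have hs2 : 2 * ∑ g ∈ (St G α β).erase 1, (fx Ω g : ℤ) =
      ((f : ℤ) - 1) * ((n : ℤ) + 3 - ℓ) := by
    rw [mul_sum]
    have : ∀ g ∈ (St G α β).erase 1, 2 * (fx Ω g : ℤ) = (n : ℤ) + 3 - ℓ := by
      intro g hg
      rw [mem_erase] at hg
      have := hform g hg.2 hg.1
      omega
    rw [sum_congr rfl this, sum_const, card_erase_of_mem h1mem, nsmul_eq_mul]
    congr 1
    rw [Nat.cast_sub (by omega)]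
    simp [hfdef]
  have hs3 : (fx Ω (1 : G) : ℤ) + ∑ g ∈ (St G α β).erase 1, (fx Ω g : ℤ) = (t : ℤ) * f := by
    have := hsplit
    rw [hsum] at this
    exact_mod_cast this
  rw [fx_one] at hs3
  have ht' : 2 * (t : ℤ) = (n : ℤ) + 3 := by exact_mod_cast ht
  have key : ((f : ℤ) - 1) * ℓ = (n : ℤ) - 3 := by
    have e : 2 * ((n : ℤ) + ∑ g ∈ (St G α β).erase 1, (fx Ω g : ℤ)) = 2 * ((t : ℤ) * f) := by
      rw [hs3]
    rw [mul_add, hs2] at e
    have e2 : 2 * ((t : ℤ) * f) = ((n : ℤ) + 3) * f := by rw [← ht']; ring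
    rw [e2] at e
    nlinarith
  have hf1 : (0 : ℤ) ≤ (f : ℤ) - 1 := by
    have : (2 : ℤ) ≤ f := by exact_mod_cast hf
    linarith
  have hℓ6' : (6 : ℤ) ≤ ℓ := by exact_mod_cast hℓ6
  have h6 : 6 * ((f : ℤ) - 1) ≤ (n : ℤ) - 3 := by
    rw [← key]
    nlinarith
  -- final inequality
  have hf0 : (0 : ℤ) ≤ f := by positivity
  have htn : (t : ℤ) * 2 = (n : ℤ) + 3 := by linarith
  nlinarith

end Cfsg.Agent.Lib.Derange.M3c
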