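import Mathlib
set_option autoImplicit false

namespace Cfsg.Agent.Lib.Derange.Num

open Finset
open scoped Classical

variable {ι : Type*}

/-- The Cauchy-Schwarz step. -/
theorem jensen (s : Finset ι) {i₀ : ι} (hi₀ : i₀ ∈ s) (X : ι → ℕ) (n t : ℕ) (hn : X i₀ = n)
    (hpos : ∀ i ∈ s, 0 < X i) (hsum : ∑ i ∈ s, X i = t * s.card) (hf : 2 ≤ s.card)
    (hJ : (2 * (s.card : ℤ) - 1) * (t : ℤ) ≤ (n : ℤ) * (s.card : ℤ)) :
    (2 * (s.card : ℚ)) ≤ (n : ℚ) * ∑ i ∈ s, (1 : ℚ) / (X i : ℚ) := by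
  set f : ℚ := (s.card : ℚ) with hfdef
  have hnpos : (0 : ℚ) < n := by
    rw [← hn]; exact_mod_cast hpos i₀ hi₀
  have hf2 : (2 : ℚ) ≤ f := by rw [hfdef]; exact_mod_cast hf
  set s' := s.erase i₀ with hs'
  have hcard : (s'.card : ℚ) = f - 1 := by
    rw [hs', card_erase_of_mem hi₀, Nat.cast_sub (by omega)]
    simp [hfdef]
  have hsplitT := add_sum_erase s (fun i => (1 : ℚ) / (X i : ℚ)) hi₀
  have hsplitX := add_sum_erase s (fun i => (X i : ℚ)) hi₀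
  rw [hn] at hsplitT hsplitX
  have hsumq : ∑ i ∈ s, (X i : ℚ) = (t : ℚ) * f := by
    rw [hfdef]; exact_mod_cast hsum
  set A := ∑ i ∈ s', (X i : ℚ) with hA
  have hAeq : A = (t : ℚ) * f - n := by linarith
  have hposq : ∀ i ∈ s', (0 : ℚ) < (X i : ℚ) := by
    intro i hi
    exact_mod_cast hpos i (mem_of_mem_erase hi)
  have hne : s'.Nonempty := by
    rw [← card_pos, hs', card_erase_of_mem hi₀]
    omega
  have hApos : 0 < A := sum_pos hposq hne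
  have hsed := sq_sum_div_le_sum_sq_div s' (fun _ => (1 : ℚ)) hposq
  simp only [sum_const, nsmul_eq_mul, mul_one, one_pow] at hsed
  rw [hcard, ← hA] at hsed
  rw [← hsplitT, mul_add]
  have h1 : (n : ℚ) * (1 / (n : ℚ)) = 1 := by field_simp
  rw [h1]
  have hJq : (2 * f - 1) * (t : ℚ) ≤ (n : ℚ) * f := by
    rw [hfdef]; exact_mod_cast hJ
  have h2 : (2 * f - 1) * A ≤ (n : ℚ) * (f - 1) ^ 2 := by
    rw [hAeq]
    nlinarith
  have h3 : 2 * f - 1 ≤ (n : ℚ) * ((f - 1) ^ 2 / A) := by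
    rw [← mul_div_assoc, le_div_iff₀ hApos]
    exact h2
  have h4 : (n : ℚ) * ((f - 1) ^ 2 / A) ≤ (n : ℚ) * ∑ i ∈ s', (1 : ℚ) / (X i : ℚ) :=
    mul_le_mul_of_nonneg_left hsed hnpos.le
  linarith

/-- The case where non-identity elements fix few points. -/
theorem big_case (s : Finset ι) {i₀ : ι} (hi₀ : i₀ ∈ s) (X : ι → ℕ) (n : ℕ) (hn : X i₀ = n)
    (hpos : ∀ i ∈ s, 0 < X i) (h3 : ∀ i ∈ s, i ≠ i₀ → 3 * X i ≤ n) (hf : 2 ≤ s.card) :
    (2 * (s.card : ℚ)) ≤ (n : ℚ) * ∑ i ∈ s, (1 : ℚ) / (X i : ℚ) := by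
  set f : ℚ := (s.card : ℚ) with hfdef
  have hnpos : (0 : ℚ) < n := by
    rw [← hn]; exact_mod_cast hpos i₀ hi₀
  have hf2 : (2 : ℚ) ≤ f := by rw [hfdef]; exact_mod_cast hf
  set s' := s.erase i₀ with hs'
  have hcard : (s'.card : ℚ) = f - 1 := by
    rw [hs', card_erase_of_mem hi₀, Nat.cast_sub (by omega)]
    simp [hfdef]
  have hsplitT := add_sum_erase s (fun i => (1 : ℚ) / (X i : ℚ)) hi₀
  rw [hn] at hsplitT
  rw [← hsplitT, mul_add]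
  have h1 : (n : ℚ) * (1 / (n : ℚ)) = 1 := by field_simp
  rw [h1, mul_sum]
  have h4 : ∀ i ∈ s', (3 : ℚ) ≤ (n : ℚ) * (1 / (X i : ℚ)) := by
    intro i hi
    have hi' := mem_erase.1 hi
    have h5 : (0 : ℚ) < X i := by exact_mod_cast hpos i hi'.2
    have h6 : (3 : ℚ) * X i ≤ n := by exact_mod_cast h3 i hi'.2 hi'.1
    rw [← mul_div_assoc, mul_one, le_div_iff₀ h5]
    exact h6
  have h5 := card_nsmul_le_sum s' _ 3 h4
  rw [nsmul_eq_mul, hcard] at h5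
  linarith

end Cfsg.Agent.Lib.Derange.Num
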