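import Cfsg.Agent.Lib.Derange.M3c
import Cfsg.Agent.Lib.Derange.M2
import Cfsg.Agent.Lib.Derange.Num
set_option autoImplicit false
set_option linter.unusedSectionVars false
set_option linter.style.haveILetI false
set_option linter.unusedVariables false

namespace Cfsg.Agent.Lib.Derange.Main

open Finset MulAction
open scoped Classical
open Cfsg.Agent.Lib.Derange.Basic Cfsg.Agent.Lib.Derange.Lines Cfsg.Agent.Lib.Derange.Third
open Cfsg.Agent.Lib.Derange.Orbits

variable {G Ω : Type*} [Group G] [Fintype G] [MulAction G Ω] [Fintype Ω]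

/-- The two-point stabilizer as a subgroup. -/
def KS (G : Type*) [Group G] [MulAction G Ω] (α β : Ω) : Subgroup G :=
  stabilizer G α ⊓ stabilizer G β

theorem mem_KS {α β : Ω} {g : G} : g ∈ KS G α β ↔ g ∈ St G α β := by
  rw [mem_St]
  exact Iff.rfl

theorem sum_St (α β : Ω) :
    ∑ g ∈ St G α β, fx Ω g = Nat.card (orbitRel.Quotient (KS G α β) Ω) * (St G α β).card := by
  have h1 : ∑ g ∈ St G α β, fx Ω g = ∑ h : KS G α β, fx Ω (h : G) :=
    sum_subtype (St G α β) (fun x => mem_KS.symm) (fun g => fx Ω g)
  have h2 := sum_fx (Ω := Ω) (KS G α β)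
  have h3 : Fintype.card (KS G α β) = (St G α β).card :=
    Fintype.card_of_subtype _ (fun x => mem_KS.symm)
  rw [h1, ← h3, ← h2]
  rfl

theorem Fx_eq (α β : Ω) : (Fx (KS G α β) : Finset Ω) = L G α β := by
  ext x
  rw [mem_Fx, mem_L]
  constructor
  · intro h g h1 h2
    exact h ⟨g, mem_KS.2 (mem_St.2 ⟨h1, h2⟩)⟩
  · rintro h ⟨g, hg⟩
    have := mem_St.1 (mem_KS.1 hg)
    exact h g this.1 this.2

/-- The three-orbit case for two-point lines is impossible. -/
theorem false_of_three_orbit [FaithfulSMul G Ω] (h2 : TwoTrans G Ω) {α β : Ω} (hαβ : α ≠ β)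
    (hn : 6 ≤ Fintype.card Ω)
    (heq : 2 * Fintype.card (orbitRel.Quotient (KS G α β) Ω) + 1 =
      Fintype.card Ω + (Fx (KS G α β) : Finset Ω).card) : False := by
  obtain ⟨a, hmoved, hcard3, hothers⟩ := orbit_three_of_eq heq
  set H := KS G α β with hH
  -- 3 divides the order
  have hdvd : 3 ∣ Nat.card H := by
    have h1 : (stabilizer H a).index ∣ Nat.card H := Subgroup.index_dvd_card _
    rw [index_stabilizer] at h1
    have h3 : orbit H a = ((univ.filter fun x : Ω => q H x = q H a : Finset Ω) : Set Ω) := by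
      ext x
      simp only [coe_filter, mem_univ, true_and, Set.mem_ofPred_eq]
      rw [q_eq_iff]
      rfl
    rw [h3, Set.ncard_coe_finset, hcard3] at h1
    exact h1
  haveI : Fact (Nat.Prime 3) := ⟨Nat.prime_three⟩
  obtain ⟨z, hz⟩ := exists_prime_orderOf_dvd_card' 3 hdvd
  have hz3 : z ^ 3 = 1 := by rw [← hz]; exact pow_orderOf_eq_one z
  have hz3' : ∀ x : Ω, z • z • z • x = x := by
    intro x
    have : (z ^ 3) • x = x := by rw [hz3, one_smul]
    rwa [pow_succ, pow_two, mul_smul, mul_smul] at this
  have hz1 : z ≠ 1 := by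
    rintro rfl
    simp at hz
  -- points outside the orbit are fixed by `z`
  have hout : ∀ x : Ω, q H x ≠ q H a → z • x = x := by
    intro x hx
    rcases hothers x hx z (z * z) with h | h | h
    · exact h
    · rw [mul_smul] at h
      have := hz3' x
      rw [h] at this
      exact this
    · rw [mul_smul] at h
      exact (smul_left_cancel z h).symm
  obtain ⟨a', ha'⟩ : ∃ u : Ω, z • u ≠ u := by
    by_contra h
    push Not at h
    apply hz1
    apply Subtype.ext
    apply eq_of_smul_eq_smul (α := Ω)
    intro x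
    have h' : (z : G) • x = x := h x
    simpa using h'
  have hqa' : q H a' = q H a := by
    by_contra h
    exact ha' (hout a' h)
  set b := z • a' with hb
  set c := z • b with hc
  have hab : a' ≠ b := ha'.symm
  have hbc : b ≠ c := by
    intro h
    exact ha' (smul_left_cancel z h).symm
  have hac : a' ≠ c := by
    intro h
    have := hz3' a'
    rw [← hb, ← hc, ← h] at this
    exact ha' this
  have hza : z • c = a' := hz3' a'
  have hqb : q H b = q H a := by
    rw [← hqa']
    exact q_eq_iff.2 ⟨z, rfl⟩
  have hqc : q H c = q H a := by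
    rw [← hqb]
    exact q_eq_iff.2 ⟨z, rfl⟩
  have hfiber : (univ.filter fun x : Ω => q H x = q H a) = {a', b, c} := by
    symm
    apply eq_of_subset_of_card_le
    · intro x hx
      simp only [mem_insert, mem_singleton] at hx
      simp only [mem_filter, mem_univ, true_and]
      rcases hx with rfl | rfl | rfl
      · exact hqa'
      · exact hqb
      · exact hqc
    · rw [hcard3, card_eq_three.2 ⟨a', b, c, hab, hac, hbc, rfl⟩]
  have hmemfib : ∀ x : Ω, q H x = q H a → x = a' ∨ x = b ∨ x = c := by
    intro x hx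
    have : x ∈ (univ.filter fun x : Ω => q H x = q H a) := by simp [hx]
    rw [hfiber] at this
    simpa using this
  have hfix : ∀ x, x ≠ a' → x ≠ b → x ≠ c → z • x = x := by
    intro x h1 h3 h4
    apply hout
    intro h
    rcases hmemfib x h with h5 | h5 | h5
    · exact h1 h5
    · exact h3 h5
    · exact h4 h5
  -- the fixed points of `H` are not moved
  have hHfix : ∀ {u : Ω}, (∀ h : H, h • u = u) → u ≠ a' ∧ u ≠ b ∧ u ≠ c := by
    intro u hu
    have hzu := hu z
    refine ⟨?_, ?_, ?_⟩
    · rintro rfl; exact ha' hzu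
    · rintro rfl; exact hbc hzu.symm
    · rintro rfl
      exact hac (hza.symm.trans hzu)
  have hαfix : ∀ h : H, h • α = α := fun h => (mem_St.1 (mem_KS.1 h.2)).1
  have hβfix : ∀ h : H, h • β = β := fun h => (mem_St.1 (mem_KS.1 h.2)).2
  obtain ⟨ha1, ha2, ha3⟩ := hHfix hαfix
  obtain ⟨hb1, hb2, hb3⟩ := hHfix hβfix
  have hinv : ∀ k ∈ St G α β, ∀ x, (x = a' ∨ x = b ∨ x = c) →
      (k • x = a' ∨ k • x = b ∨ k • x = c) := by
    intro k hk x hx
    apply hmemfib
    have hqx : q H x = q H a := by
      rcases hx with rfl | rfl | rfl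
      · exact hqa'
      · exact hqb
      · exact hqc
    rw [← hqx]
    exact q_eq_iff.2 ⟨⟨k, mem_KS.2 hk⟩, rfl⟩
  exact M2.three_cycle_false (G := G) h2 hαβ hn (z := (z : G)) hab hac hbc rfl rfl hza hfix
    ha1 ha2 ha3 hb1 hb2 hb3 hinv

/-- The main numerical statement in the two-transitive case. -/
theorem crit [FaithfulSMul G Ω] (h2 : TwoTrans G Ω) (hn : 7 ≤ Fintype.card Ω) {α β : Ω}
    (hαβ : α ≠ β) (hf : 2 ≤ (St G α β).card) :
    (2 * ((St G α β).card : ℚ)) ≤ (Fintype.card Ω : ℚ) * T G α β := by
  set f := (St G α β).card with hfdef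
  set n := Fintype.card Ω with hndef
  set m := (L G α β).card with hmdef
  set t := Nat.card (orbitRel.Quotient (KS G α β) Ω) with htdef
  have htf : t = Fintype.card (orbitRel.Quotient (KS G α β) Ω) := Nat.card_eq_fintype_card
  have hone : (1 : G) ∈ St G α β := by simp [mem_St]
  have hone' : fx Ω (1 : G) = n := fx_one
  have hpos : ∀ g ∈ St G α β, 0 < fx Ω g := by
    intro g hg
    exact card_pos.2 ⟨α, by simp [(mem_St.1 hg).1]⟩
  have hsum : ∑ g ∈ St G α β, fx Ω g = t * f := sum_St α β
  have ht : 2 * t ≤ n + m := by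
    have := two_mul_t_le (Ω := Ω) (H := KS G α β)
    rw [Fx_eq, ← htf] at this
    exact this
  have hm2 : 2 ≤ m := by
    have : ({α, β} : Finset Ω) ⊆ L G α β := by
      intro x hx
      simp only [mem_insert, mem_singleton] at hx
      rcases hx with rfl | rfl
      · exact left_mem_L _ _
      · exact right_mem_L _ _
    have h1 := card_le_card this
    rwa [card_pair hαβ] at h1
  have hfx : ∀ g ∈ St G α β, g ≠ 1 → fx Ω g * (m - 1) ≤ n - 1 := by
    intro g _ hg1
    exact fx_mul_le h2 hg1 hαβ
  by_cases hm4 : 4 ≤ m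
  · unfold T
    apply Num.big_case (St G α β) hone (fun g => fx Ω g) n hone' hpos _ hf
    intro g hg hg1
    have h1 := hfx g hg hg1
    have h3 : fx Ω g * 3 ≤ fx Ω g * (m - 1) := Nat.mul_le_mul_left _ (by omega)
    show 3 * fx Ω g ≤ n
    omega
  -- the Jensen criterion suffices in the other cases
  have hJ : (2 * (f : ℤ) - 1) * (t : ℤ) ≤ (n : ℤ) * (f : ℤ) := by
    by_contra hnotJ
    push Not at hnotJ
    have hf0 : (2 : ℤ) ≤ f := by exact_mod_cast hf
    have ht2n : n < 2 * t := by
      by_contra h
      push Not at h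
      have h1 : (2 * (t : ℤ)) ≤ n := by exact_mod_cast h
      have ht0 : (0 : ℤ) ≤ t := by positivity
      nlinarith
    have hm23 : m = 2 ∨ m = 3 := by omega
    rcases hm23 with hm | hm
    · -- two-point lines
      have hFm : ∀ x : Ω, (∀ g ∈ St G α β, g • x = x) → x = α ∨ x = β := by
        intro x hx
        have hsub : ({α, β} : Finset Ω) ⊆ L G α β := by
          intro y hy
          simp only [mem_insert, mem_singleton] at hy
          rcases hy with rfl | rfl
          · exact left_mem_L _ _
          · exact right_mem_L _ _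
        have heq : ({α, β} : Finset Ω) = L G α β := by
          apply eq_of_subset_of_card_le hsub
          rw [card_pair hαβ]
          omega
        have hxL : x ∈ L G α β := mem_L.2 fun g h1 h3 => hx g (mem_St.2 ⟨h1, h3⟩)
        rw [← heq] at hxL
        simpa using hxL
      have hcases : 2 * t = n + 2 ∨ 2 * t = n + 1 := by omega
      rcases hcases with h | h
      · -- all orbits have size at most two
        have heq : 2 * Fintype.card (orbitRel.Quotient (KS G α β) Ω) =
            Fintype.card Ω + (Fx (KS G α β) : Finset Ω).card := by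
          rw [Fx_eq, ← htf, h, ← hm]
        have orb : ∀ (x : Ω) (g h : G), g ∈ St G α β → h ∈ St G α β →
            g • x = x ∨ h • x = x ∨ g • x = h • x := by
          intro x g h hg hh
          exact orbit_two_of_eq heq x ⟨g, mem_KS.2 hg⟩ ⟨h, mem_KS.2 hh⟩
        have hodd : Odd (Fintype.card Ω - 1) := by
          rw [Nat.odd_iff]
          omega
        have hle := M2.card_St_le_two h2 hαβ hFm orb hodd
        have hfeq : f = 2 := by omega
        have hfz : (f : ℤ) = 2 := by exact_mod_cast hfeq
        have h1 : (2 * (t : ℤ)) = n + 2 := by exact_mod_cast h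
        have hnn : (7 : ℤ) ≤ n := by exact_mod_cast hn
        rw [hfz] at hnotJ
        linarith
      · exfalso
        refine false_of_three_orbit h2 hαβ (by omega) ?_
        rw [Fx_eq, ← htf, h, ← hmdef, hm]
    · -- three-point lines
      have h3 : Three G Ω := fun a b hab => (card_L_eq h2 hab hαβ).trans hm
      have hodd := odd_card h2 h3 α
      have hcases : 2 * t = n + 3 ∨ 2 * t = n + 1 := by
        rw [Nat.odd_iff] at hodd
        omega
      rcases hcases with h | h
      · have heq : 2 * Fintype.card (orbitRel.Quotient (KS G α β) Ω) =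
            Fintype.card Ω + (Fx (KS G α β) : Finset Ω).card := by
          rw [Fx_eq, ← htf, h, ← hm]
        have orb : ∀ (x : Ω) (g h : G), g ∈ St G α β → h ∈ St G α β →
            g • x = x ∨ h • x = x ∨ g • x = h • x := by
          intro x g h hg hh
          exact orbit_two_of_eq heq x ⟨g, mem_KS.2 hg⟩ ⟨h, mem_KS.2 hh⟩
        have D : M3.Data G α β := ⟨h2, h3, hαβ, orb⟩
        have := M3c.jensen_crit D hf hsum h
        exact absurd this (not_le.2 hnotJ)
      · -- numerical contradiction
        have hle : ∀ g ∈ (St G α β).erase 1, 2 * (fx Ω g : ℤ) ≤ (n : ℤ) - 1 := by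
          intro g hg
          rw [mem_erase] at hg
          have h1 := hfx g hg.2 hg.1
          rw [hm] at h1
          have hn' : 1 ≤ n := by omega
          have : (((fx Ω g * 2 : ℕ)) : ℤ) ≤ ((n - 1 : ℕ) : ℤ) := by exact_mod_cast h1
          rw [Nat.cast_sub hn'] at this
          push_cast at this
          linarith
        have hs := sum_le_sum hle
        rw [← mul_sum, sum_const, card_erase_of_mem hone, nsmul_eq_mul] at hs
        have hsplit := add_sum_erase (St G α β) (fun g => (fx Ω g : ℤ)) hone
        have hsumz : ∑ g ∈ St G α β, (fx Ω g : ℤ) = (t : ℤ) * f := by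
          exact_mod_cast hsum
        rw [hsumz] at hsplit
        have hone2 : (fx Ω (1 : G) : ℤ) = n := by exact_mod_cast hone'
        rw [hone2] at hsplit
        have hf1 : ((f - 1 : ℕ) : ℤ) = (f : ℤ) - 1 := by
          rw [Nat.cast_sub (by omega)]; simp
        rw [hf1] at hs
        have htz : 2 * (t : ℤ) = n + 1 := by exact_mod_cast h
        have hle2 : (f : ℤ) ≤ t := by
          have e : (n : ℤ) = 2 * t - 1 := by linarith
          rw [e] at hs hsplit
          nlinarith
        have e : (n : ℤ) = 2 * t - 1 := by linarith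
        rw [e] at hnotJ
        nlinarith
  unfold T
  exact Num.jensen (St G α β) hone (fun g => fx Ω g) n t hone' hpos hsum hf hJ

/-- Derangement bound in the two-transitive case with nontrivial two-point stabilizer. -/
theorem der_bound [FaithfulSMul G Ω] (h2 : TwoTrans G Ω) (htr : IsPretransitive G Ω) [Nonempty Ω]
    (hn : 7 ≤ Fintype.card Ω) {α β : Ω} (hαβ : α ≠ β) (hf : 2 ≤ (St G α β).card) :
    2 * Fintype.card G ≤ Fintype.card Ω * (univ.filter fun g : G => fx Ω g = 0).card := by
  have h1 := crit h2 hn hαβ hf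
  have h3 := card_der_eq h2 htr hαβ
  have h4 := card_group_eq h2 hαβ
  have h5 : ((2 * Fintype.card G : ℕ) : ℚ) ≤
      ((Fintype.card Ω * (univ.filter fun g : G => fx Ω g = 0).card : ℕ) : ℚ) := by
    push_cast
    rw [h3, h4]
    push_cast
    have h6 : (0 : ℚ) ≤ ((univ : Finset Ω).offDiag.card : ℚ) := by positivity
    nlinarith [mul_le_mul_of_nonneg_left h1 h6]
  exact_mod_cast h5

end Cfsg.Agent.Lib.Derange.Main
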