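import Cfsg.Agent.Lib.Derange.Lines
set_option autoImplicit false
set_option linter.unusedSectionVars false
set_option linter.style.haveILetI false

namespace Cfsg.Agent.Lib.Derange.Orbits

open Finset MulAction
open scoped Classical
open Cfsg.Agent.Lib.Derange.Basic

variable {Ω : Type*} [Fintype Ω]
variable (H : Type*) [Group H] [Fintype H] [MulAction H Ω]

/-- quotient map to the orbit space. -/
noncomputable def q (x : Ω) : orbitRel.Quotient H Ω := Quotient.mk'' x

/-- The fixed points of the whole group. -/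
noncomputable def Fx : Finset Ω := univ.filter fun x : Ω => ∀ h : H, h • x = x

variable {H}

theorem q_eq_iff {x y : Ω} : q H x = q H y ↔ ∃ h : H, h • y = x := by
  unfold q
  rw [Quotient.eq'', orbitRel_apply]
  rfl

theorem mem_Fx {x : Ω} : x ∈ Fx H ↔ ∀ h : H, h • x = x := by
  simp [Fx]

variable (H)

noncomputable def w (C : orbitRel.Quotient H Ω) : ℕ := (univ.filter fun x : Ω => q H x = C).card
noncomputable def v (C : orbitRel.Quotient H Ω) : ℕ := ((Fx H).filter fun x : Ω => q H x = C).card

variable {H}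

theorem sum_w : ∑ C : orbitRel.Quotient H Ω, w H C = Fintype.card Ω := by
  have := card_eq_sum_card_fiberwise (f := q H) (s := (univ : Finset Ω))
    (t := (univ : Finset (orbitRel.Quotient H Ω))) (fun _ _ => mem_univ _)
  rw [card_univ] at this
  rw [this]
  rfl

theorem sum_v : ∑ C : orbitRel.Quotient H Ω, v H C = (Fx H : Finset Ω).card := by
  have := card_eq_sum_card_fiberwise (f := q H) (s := Fx H)
    (t := (univ : Finset (orbitRel.Quotient H Ω))) (fun _ _ => mem_univ _)
  rw [this]
  rfl

theorem exists_q (C : orbitRel.Quotient H Ω) : ∃ x : Ω, q H x = C := by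
  induction C using Quotient.inductionOn with
  | _ a => exact ⟨a, rfl⟩

theorem two_le_w_add_v (C : orbitRel.Quotient H Ω) : 2 ≤ w H C + v H C := by
  obtain ⟨x, rfl⟩ := exists_q C
  by_cases hx : x ∈ Fx H
  · have h1 : 0 < w H (q H x) := card_pos.2 ⟨x, by simp⟩
    have h2 : 0 < v H (q H x) := card_pos.2 ⟨x, by simp [hx]⟩
    omega
  · rw [mem_Fx] at hx
    push Not at hx
    obtain ⟨h, hh⟩ := hx
    have h1 : ({x, h • x} : Finset Ω) ⊆ univ.filter fun y : Ω => q H y = q H x := by
      intro y hy
      simp only [mem_insert, mem_singleton] at hy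
      rcases hy with rfl | rfl
      · simp
      · simp only [mem_filter, mem_univ, true_and]
        exact q_eq_iff.2 ⟨h, rfl⟩
    have h2 := card_le_card h1
    rw [card_pair (Ne.symm hh)] at h2
    have : w H (q H x) ≥ 2 := h2
    omega

/-- `2 t ≤ n + m`. -/
theorem two_mul_t_le :
    2 * Fintype.card (orbitRel.Quotient H Ω) ≤ Fintype.card Ω + (Fx H : Finset Ω).card := by
  have h := sum_le_sum (fun C (_ : C ∈ (univ : Finset (orbitRel.Quotient H Ω))) =>
    two_le_w_add_v (H := H) C)
  rw [sum_add_distrib, sum_w, sum_v, sum_const, card_univ, smul_eq_mul, mul_comm] at h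
  exact h

/-- In an orbit of `w + v = 2` a moved point has orbit of size two. -/
theorem two_of_w_add_v {x : Ω} (hx : w H (q H x) + v H (q H x) = 2) (g h : H) :
    g • x = x ∨ h • x = x ∨ g • x = h • x := by
  by_contra hcon
  push Not at hcon
  obtain ⟨h1, h2, h3⟩ := hcon
  have hsub : ({x, g • x, h • x} : Finset Ω) ⊆ univ.filter fun y : Ω => q H y = q H x := by
    intro y hy
    simp only [mem_insert, mem_singleton] at hy
    simp only [mem_filter, mem_univ, true_and]
    rcases hy with rfl | rfl | rfl
    · rfl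
    · exact q_eq_iff.2 ⟨g, rfl⟩
    · exact q_eq_iff.2 ⟨h, rfl⟩
  have h4 := card_le_card hsub
  rw [card_eq_three.2 ⟨x, g • x, h • x, Ne.symm h1, Ne.symm h2, h3, rfl⟩] at h4
  have : 3 ≤ w H (q H x) := h4
  omega

/-- If `2 t = n + m` then all orbits have size at most 2. -/
theorem orbit_two_of_eq
    (heq : 2 * Fintype.card (orbitRel.Quotient H Ω) = Fintype.card Ω + (Fx H : Finset Ω).card)
    (x : Ω) (g h : H) : g • x = x ∨ h • x = x ∨ g • x = h • x := by
  apply two_of_w_add_v
  have hsum : ∑ C : orbitRel.Quotient H Ω, (w H C + v H C) =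
      ∑ _C : orbitRel.Quotient H Ω, 2 := by
    rw [sum_add_distrib, sum_w, sum_v, sum_const, card_univ, smul_eq_mul, mul_comm, heq]
  have := (sum_eq_sum_iff_of_le (fun C (_ : C ∈ (univ : Finset (orbitRel.Quotient H Ω))) =>
    two_le_w_add_v (H := H) C)).1 hsum.symm
  exact (this _ (mem_univ _)).symm

/-- If `2 t + 1 = n + m` then exactly one orbit has size three and all others have size at most 2. -/
theorem orbit_three_of_eq
    (heq : 2 * Fintype.card (orbitRel.Quotient H Ω) + 1 = Fintype.card Ω + (Fx H : Finset Ω).card) :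
    ∃ a : Ω, (∃ h : H, h • a ≠ a) ∧ (univ.filter fun x : Ω => q H x = q H a).card = 3 ∧
      ∀ x : Ω, q H x ≠ q H a → ∀ g h : H, g • x = x ∨ h • x = x ∨ g • x = h • x := by
  have hsum : ∑ C : orbitRel.Quotient H Ω, (w H C + v H C) =
      ∑ _C : orbitRel.Quotient H Ω, 2 + 1 := by
    rw [sum_add_distrib, sum_w, sum_v, sum_const, card_univ, smul_eq_mul, mul_comm, heq]
  obtain ⟨C₀, -, hC₀⟩ : ∃ C ∈ (univ : Finset (orbitRel.Quotient H Ω)), 2 < w H C + v H C := by
    by_contra hcon
    push Not at hcon
    have := sum_le_sum hcon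
    omega
  have hsplit := add_sum_erase (univ : Finset (orbitRel.Quotient H Ω))
    (fun C => w H C + v H C) (mem_univ C₀)
  have hsplit2 := add_sum_erase (univ : Finset (orbitRel.Quotient H Ω))
    (fun _ => 2) (mem_univ C₀)
  have hle : ∑ C ∈ univ.erase C₀, 2 ≤ ∑ C ∈ univ.erase C₀, (w H C + v H C) :=
    sum_le_sum fun C _ => two_le_w_add_v (H := H) C
  have h3 : w H C₀ + v H C₀ = 3 := by omega
  have heq2 : ∑ C ∈ univ.erase C₀, 2 = ∑ C ∈ univ.erase C₀, (w H C + v H C) := by omega
  have hothers := (sum_eq_sum_iff_of_le (fun C _ => two_le_w_add_v (H := H) C)).1 heq2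
  obtain ⟨a, rfl⟩ := exists_q C₀
  have hmoved : ∃ h : H, h • a ≠ a := by
    by_contra hcon
    push Not at hcon
    have ha : a ∈ Fx H := mem_Fx.2 hcon
    have h5 : (univ.filter fun x : Ω => q H x = q H a) = {a} := by
      ext y
      simp only [mem_filter, mem_univ, true_and, mem_singleton]
      constructor
      · intro hy
        obtain ⟨h, rfl⟩ := q_eq_iff.1 hy
        exact hcon h
      · rintro rfl; rfl
    have h6 : w H (q H a) = 1 := by unfold w; rw [h5]; simp
    have h7 : v H (q H a) ≤ 1 := by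
      unfold v
      have : ((Fx H).filter fun x : Ω => q H x = q H a) ⊆ univ.filter fun x : Ω => q H x = q H a :=
        fun y hy => by simp only [mem_filter, mem_univ, true_and] at hy ⊢; exact hy.2
      have h8 := card_le_card this
      rw [h5] at h8
      simpa using h8
    omega
  refine ⟨a, hmoved, ?_, ?_⟩
  · have h0 : v H (q H a) = 0 := by
      unfold v
      rw [card_eq_zero, filter_eq_empty_iff]
      intro y hy hq
      obtain ⟨h, hh⟩ := hmoved
      obtain ⟨h', hh'⟩ := q_eq_iff.1 hq.symm
      rw [mem_Fx] at hy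
      rw [hy h'] at hh'
      apply hh
      rw [← hh']
      exact hy h
    have : w H (q H a) = 3 := by omega
    exact this
  · intro x hx g h
    apply two_of_w_add_v
    exact (hothers (q H x) (mem_erase.2 ⟨hx, mem_univ _⟩)).symm

end Cfsg.Agent.Lib.Derange.Orbits
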