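import Cfsg.Agent.Lib.Derange.Orbits
set_option autoImplicit false
set_option linter.unusedSectionVars false
set_option linter.style.haveILetI false

namespace Cfsg.Agent.Lib.Derange.Third

open Finset MulAction
open scoped Classical
open Cfsg.Agent.Lib.Derange.Basic Cfsg.Agent.Lib.Derange.Lines

variable {G Ω : Type*} [Group G] [Fintype G] [MulAction G Ω] [Fintype Ω]

/-- The third point on the line through `a`, `b` (when lines have three points). -/
noncomputable def tp (G : Type*) [Group G] [Fintype G] [MulAction G Ω] (a b : Ω) : Ω :=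
  if h : ∃ c, c ∈ L G a b ∧ c ≠ a ∧ c ≠ b then Classical.choose h else a

/-- All lines have three points. -/
def Three (G Ω : Type*) [Group G] [Fintype G] [MulAction G Ω] [Fintype Ω] : Prop :=
  ∀ a b : Ω, a ≠ b → (L G a b).card = 3

theorem exists_third (h3 : Three G Ω) {a b : Ω} (hab : a ≠ b) :
    ∃ c, c ∈ L G a b ∧ c ≠ a ∧ c ≠ b ∧ ∀ d ∈ L G a b, d = a ∨ d = b ∨ d = c := by
  have h := h3 a b hab
  have ha := left_mem_L (G := G) a b
  have hb := right_mem_L (G := G) a b
  have h1 : (((L G a b).erase a).erase b).card = 1 := by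
    rw [card_erase_of_mem (mem_erase.2 ⟨hab.symm, hb⟩), card_erase_of_mem ha, h]
  obtain ⟨c, hc⟩ := card_eq_one.1 h1
  have hcm : c ∈ ((L G a b).erase a).erase b := by rw [hc]; simp
  simp only [mem_erase] at hcm
  refine ⟨c, hcm.2.2, hcm.2.1, hcm.1, ?_⟩
  intro d hd
  by_cases h1 : d = a
  · exact Or.inl h1
  by_cases h2 : d = b
  · exact Or.inr (Or.inl h2)
  right; right
  have : d ∈ ((L G a b).erase a).erase b := by
    simp only [mem_erase]; exact ⟨h2, h1, hd⟩
  rw [hc] at this
  simpa using this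

theorem tp_spec (h3 : Three G Ω) {a b : Ω} (hab : a ≠ b) :
    tp G a b ∈ L G a b ∧ tp G a b ≠ a ∧ tp G a b ≠ b := by
  obtain ⟨c, h1, h2, h4, -⟩ := exists_third (G := G) h3 hab
  have hex : ∃ c, c ∈ L G a b ∧ c ≠ a ∧ c ≠ b := ⟨c, h1, h2, h4⟩
  unfold tp
  rw [dif_pos hex]
  exact Classical.choose_spec hex

theorem tp_ne_left (h3 : Three G Ω) {a b : Ω} (hab : a ≠ b) : tp G a b ≠ a := (tp_spec h3 hab).2.1
theorem tp_ne_right (h3 : Three G Ω) {a b : Ω} (hab : a ≠ b) : tp G a b ≠ b := (tp_spec h3 hab).2.2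

theorem eq_tp (h3 : Three G Ω) {a b c : Ω} (hab : a ≠ b) (hc : c ∈ L G a b) (hca : c ≠ a)
    (hcb : c ≠ b) : c = tp G a b := by
  obtain ⟨c', h1, h2, h4, h5⟩ := exists_third (G := G) h3 hab
  have e1 : c = c' := by
    rcases h5 c hc with h | h | h
    · exact absurd h hca
    · exact absurd h hcb
    · exact h
  have e2 : tp G a b = c' := by
    rcases h5 _ (tp_spec h3 hab).1 with h | h | h
    · exact absurd h (tp_spec h3 hab).2.1
    · exact absurd h (tp_spec h3 hab).2.2
    · exact h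
  rw [e1, e2]

theorem tp_fix (h3 : Three G Ω) {a b : Ω} (hab : a ≠ b) {g : G} (h1 : g • a = a) (h2 : g • b = b) :
    g • tp G a b = tp G a b :=
  (mem_L.1 (tp_spec h3 hab).1) g h1 h2

theorem tp_comm (h3 : Three G Ω) {a b : Ω} (hab : a ≠ b) : tp G b a = tp G a b := by
  symm
  apply eq_tp h3 hab.symm
  · rw [L_comm]; exact (tp_spec h3 hab).1
  · exact tp_ne_right h3 hab
  · exact tp_ne_left h3 hab

theorem tp_tp (h2 : TwoTrans G Ω) (h3 : Three G Ω) {a b : Ω} (hab : a ≠ b) :
    tp G a (tp G a b) = b := by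
  have hac : a ≠ tp G a b := (tp_ne_left h3 hab).symm
  have e : L G a (tp G a b) = L G a b :=
    L_eq_of_mem h2 hab hac (left_mem_L _ _) (tp_spec h3 hab).1
  symm
  apply eq_tp h3 hac
  · rw [e]; exact right_mem_L _ _
  · exact hab.symm
  · exact (tp_ne_right h3 hab).symm

theorem tp_smul (h3 : Three G Ω) {a b : Ω} (hab : a ≠ b) (w : G) :
    tp G (w • a) (w • b) = w • tp G a b := by
  have hw : w • a ≠ w • b := fun h => hab (smul_left_cancel w h)
  symm
  apply eq_tp h3 hw
  · exact smul_mem_L w (tp_spec h3 hab).1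
  · exact fun h => tp_ne_left h3 hab (smul_left_cancel w h)
  · exact fun h => tp_ne_right h3 hab (smul_left_cancel w h)

theorem tp_inj (h2 : TwoTrans G Ω) (h3 : Three G Ω) {a b b' : Ω} (hab : a ≠ b) (hab' : a ≠ b')
    (h : tp G a b = tp G a b') : b = b' := by
  rw [← tp_tp h2 h3 hab, ← tp_tp h2 h3 hab', h]

/-- In a system with three-point lines, the number of points is odd. -/
theorem odd_card (h2 : TwoTrans G Ω) (h3 : Three G Ω) (α : Ω) : Odd (Fintype.card Ω) := by
  have hsum : ∑ x ∈ (univ : Finset Ω).erase α, (1 : ZMod 2) = 0 := by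
    refine sum_involution (fun x _ => tp G α x) ?_ ?_ ?_ ?_
    · intro x _; decide
    · intro x hx _
      have hx' : α ≠ x := (mem_erase.1 hx).1.symm
      exact tp_ne_right h3 hx'
    · intro x hx
      have hx' : α ≠ x := (mem_erase.1 hx).1.symm
      exact mem_erase.2 ⟨tp_ne_left h3 hx', mem_univ _⟩
    · intro x hx
      have hx' : α ≠ x := (mem_erase.1 hx).1.symm
      exact tp_tp h2 h3 hx'
  rw [sum_const, card_erase_of_mem (mem_univ _), card_univ, nsmul_eq_mul, mul_one] at hsum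
  have h4 : 2 ∣ Fintype.card Ω - 1 := (ZMod.natCast_eq_zero_iff _ 2).1 hsum
  have h5 : 0 < Fintype.card Ω := Fintype.card_pos_iff.2 ⟨α⟩
  rw [Nat.odd_iff]
  omega

end Cfsg.Agent.Lib.Derange.Third
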